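import Mathlib
import Cfsg.Agent.SL2.Basic

/-!
`SL₂` in characteristic two: involutions form one class, and an injective endomorphism fixing the
unipotent group is a conjugation by a unipotent element.
-/

set_option autoImplicit false

namespace CfsgLib.DGroup48

variable {F : Type*} [Field F] [CharP F 2]

theorem sl2_isConj_u_one [Finite F] {g : Matrix.SpecialLinearGroup (Fin 2) F} (hg : orderOf g = 2) :
    IsConj g (SL2.u 1) := by
  haveI : Fact (Nat.Prime 2) := ⟨Nat.prime_two⟩
  obtain ⟨t, ht, h⟩ := Psl2Unipotent.exists_isConj_upperU g hg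
  refine h.trans ((Psl2Unipotent.isConj_upperU_iff ht one_ne_zero).2 ?_)
  exact FiniteField.isSquare_of_char_two (ringChar.eq F 2) _

theorem sl2_u_mul_self (t : F) : SL2.u t * SL2.u t = 1 := by
  rw [← SL2.u_add, CharTwo.add_self_eq_zero, SL2.u_zero]

theorem sl2_w_mul_self : (SL2.w : Matrix.SpecialLinearGroup (Fin 2) F) * SL2.w = 1 := by
  rw [SL2.w_mul_w, SL2.neg_one_eq_one]

theorem sl2_w_notMem_B : (SL2.w : Matrix.SpecialLinearGroup (Fin 2) F) ∉ SL2.B := by
  simp

/-- Agreement on the unipotent group and on `w` is agreement everywhere. -/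
theorem sl2_hom_ext {M : Type*} [Group M] {f f' : Matrix.SpecialLinearGroup (Fin 2) F →* M}
    (hu : ∀ t, f (SL2.u t) = f' (SL2.u t)) (hw : f SL2.w = f' SL2.w) : f = f' := by
  refine MonoidHom.ext fun g => ?_
  have h : (⊤ : Subgroup _) ≤ MonoidHom.eqLocus f f' := by
    rw [← SL2.U_sup_zpowers_eq_top (sl2_w_notMem_B (F := F))]
    refine sup_le (fun x hx => ?_) (Subgroup.zpowers_le.2 hw)
    obtain ⟨t, rfl⟩ := SL2.mem_U.1 hx
    exact hu t
  exact h (Subgroup.mem_top g)

/-- An injective endomorphism fixing the unipotent group pointwise is a unipotent conjugation. -/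
theorem sl2_eq_conj_u
    (α : Matrix.SpecialLinearGroup (Fin 2) F →* Matrix.SpecialLinearGroup (Fin 2) F)
    (hinj : Function.Injective α) (hU : ∀ t, α (SL2.u t) = SL2.u t) :
    ∃ p : F, ∀ g, α g = SL2.u p * g * (SL2.u p)⁻¹ := by
  set v := α SL2.w with hv
  have hvv : v * v = 1 := by rw [hv, ← map_mul, sl2_w_mul_self, map_one]
  -- `v` is an involution with equal diagonal entries
  have hinv : v = v⁻¹ := eq_inv_of_mul_eq_one_left hvv
  have e00 : v 0 0 = v 1 1 := by
    conv_lhs => rw [hinv, SL2.inv_apply]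
    rfl
  -- `v` is outside `B`
  have hc : v 1 0 ≠ 0 := by
    intro h0
    have hB : v ∈ SL2.B := SL2.mem_B.2 h0
    have h1 : v * SL2.u 1 * v⁻¹ ∈ (SL2.U : Subgroup (Matrix.SpecialLinearGroup (Fin 2) F)) :=
      (Subgroup.mem_normalizer_iff.1 (SL2.B_le_normalizer_U hB) _).1 (SL2.u_mem_U 1)
    obtain ⟨s, hs⟩ := SL2.mem_U.1 h1
    rw [hv, ← hU 1, ← hU s, ← map_inv, ← map_mul, ← map_mul] at hs
    have h2 := hinj hs
    rw [SL2.w_conj_u] at h2
    have := congrArg (fun x : Matrix.SpecialLinearGroup (Fin 2) F => x 1 0) h2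
    simp at this
  -- the relation of order three
  have hrel : (SL2.u 1 * SL2.w : Matrix.SpecialLinearGroup (Fin 2) F) ^ 3 = 1 := by
    rw [pow_succ, pow_two]
    apply SL2.ext4 <;> simp [Matrix.mul_apply, Fin.sum_univ_two, CharTwo.neg_eq, CharTwo.add_self_eq_zero]
  have hrel' : (SL2.u 1 * v) ^ 3 = 1 := by
    have := congrArg α hrel
    rwa [map_pow, map_mul, hU, map_one] at this
  have hdet := SL2.det_eq v
  rw [← e00] at hdet
  set M := SL2.u 1 * v with hM
  have m00 : M 0 0 = v 0 0 + v 1 0 := by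
    simp [hM, Matrix.mul_apply, Fin.sum_univ_two]
  have m01 : M 0 1 = v 0 1 + v 0 0 := by
    simp [hM, Matrix.mul_apply, Fin.sum_univ_two, e00]
  have m10 : M 1 0 = v 1 0 := by simp [hM, Matrix.mul_apply, Fin.sum_univ_two]
  have m11 : M 1 1 = v 0 0 := by simp [hM, Matrix.mul_apply, Fin.sum_univ_two, e00]
  have h10 : (M 1 0 * M 0 0 + M 1 1 * M 1 0) * M 0 0 + (M 1 0 * M 0 1 + M 1 1 * M 1 1) * M 1 0 = 0 := by
    have := congrArg (fun x : Matrix.SpecialLinearGroup (Fin 2) F => (x : Matrix (Fin 2) (Fin 2) F)) hrel'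
    have := congrFun (congrFun this 1) 0
    simpa only [pow_succ, pow_zero, one_mul, Matrix.SpecialLinearGroup.coe_mul, Matrix.mul_apply,
      Fin.sum_univ_two, Matrix.SpecialLinearGroup.coe_one,
      Matrix.one_apply_ne (show (1 : Fin 2) ≠ 0 by decide)] using this
  rw [m00, m01, m10, m11] at h10
  have h2 : (2 : F) = 0 := CharTwo.two_eq_zero
  set a := v 0 0
  set b := v 0 1
  set c := v 1 0
  have hc1 : c = 1 := by
    have h3 : c * (c + 1) ^ 2 = 0 := by
      linear_combination h10 + c * hdet + (c - 2 * a * c ^ 2 - 2 * a ^ 2 * c + c ^ 2) * h2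
    have h4 := pow_eq_zero_iff two_ne_zero |>.1 ((mul_eq_zero.1 h3).resolve_left hc)
    exact (CharTwo.add_eq_zero.1 h4)
  have hb : b = 1 + a * a := by
    rw [hc1] at hdet
    linear_combination -hdet - h2
  have hvw : v = SL2.u a * SL2.w * (SL2.u a)⁻¹ := by
    rw [← inv_eq_of_mul_eq_one_right (sl2_u_mul_self a), inv_inv]
    apply SL2.ext4 <;>
      simp [Matrix.mul_apply, Fin.sum_univ_two, CharTwo.neg_eq] <;>
      first | exact e00.symm | exact hc1 | exact hb.trans (by ring) | rfl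
  refine ⟨a, fun g => ?_⟩
  have he : α = (MulAut.conj (SL2.u a)).toMonoidHom := by
    refine sl2_hom_ext (fun t => ?_) ?_
    · rw [hU, MulEquiv.coe_toMonoidHom, MulAut.conj_apply, ← SL2.u_add, ← SL2.u_neg, ← SL2.u_add]
      congr 1; ring
    · rw [MulEquiv.coe_toMonoidHom, MulAut.conj_apply, ← hv]; exact hvw
  rw [he]; rfl

end CfsgLib.DGroup48
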