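import Mathlib

/-!
Groups whose 2-subgroups have all elements of order at least four commuting (for instance dihedral
Sylow 2-subgroups): no section SL(2, p).
-/

set_option autoImplicit false

namespace CfsgLib.DGroup48

/-- In every 2-subgroup the elements which are not involutions commute. -/
def TwoDihedralLike (G : Type*) [Group G] : Prop :=
  ∀ (P : Subgroup G), IsPGroup 2 P → ∀ x ∈ P, ∀ y ∈ P, x * x ≠ 1 → y * y ≠ 1 → Commute x y

theorem dihedral_commute_of_sq_ne_one {n : ℕ} {x y : DihedralGroup n} (hx : x * x ≠ 1) (hy : y * y ≠ 1) :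
    Commute x y := by
  cases x with
  | sr i => simp at hx
  | r i =>
    cases y with
    | sr j => simp at hy
    | r j =>
      show _ = _
      simp [add_comm]

variable {G : Type*} [Group G] [Finite G]

theorem twoDihedralLike_of_sylow (S : Sylow 2 G) {n : ℕ} (e : (S : Subgroup G) ≃* DihedralGroup n) :
    TwoDihedralLike G := by
  haveI : Fact (Nat.Prime 2) := ⟨Nat.prime_two⟩
  intro P hP x hx y hy hx2 hy2
  obtain ⟨T, hT⟩ := hP.exists_le_sylow
  obtain ⟨f⟩ : Nonempty ((T : Subgroup G) ≃* DihedralGroup n) :=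
    ⟨(T.equiv S).trans e⟩
  let x' : (T : Subgroup G) := ⟨x, hT hx⟩
  let y' : (T : Subgroup G) := ⟨y, hT hy⟩
  have h : Commute (f x') (f y') := by
    refine dihedral_commute_of_sq_ne_one ?_ ?_
    · rw [← map_mul, ne_eq, EmbeddingLike.map_eq_one_iff]
      exact fun h => hx2 (congrArg Subtype.val h)
    · rw [← map_mul, ne_eq, EmbeddingLike.map_eq_one_iff]
      exact fun h => hy2 (congrArg Subtype.val h)
  have h2 := h.map f.symm.toMonoidHom
  simp only [MulEquiv.coe_toMonoidHom, MulEquiv.symm_apply_apply] at h2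
  exact congrArg Subtype.val h2.eq

theorem exists_quaternion_pair {p : ℕ} [Fact p.Prime] (hp : p ≠ 2) :
    ∃ i j : Matrix.SpecialLinearGroup (Fin 2) (ZMod p),
      i * i ≠ 1 ∧ j * j ≠ 1 ∧ i ^ 4 = 1 ∧ j ^ 4 = 1 ∧ j * i * j⁻¹ = i⁻¹ ∧ ¬ Commute i j := by
  obtain ⟨a, b, hab⟩ := ZMod.sq_add_sq p (-1)
  have h2 : (2 : ZMod p) ≠ 0 := by
    intro h
    have h' : ((2 : ℕ) : ZMod p) = 0 := by exact_mod_cast h
    rw [ZMod.natCast_eq_zero_iff] at h'
    have := Nat.le_of_dvd (by norm_num) h'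
    have := (Fact.out : p.Prime).two_le
    omega
  let i : Matrix.SpecialLinearGroup (Fin 2) (ZMod p) :=
    ⟨!![0, -1; 1, 0], by simp [Matrix.det_fin_two_of]⟩
  let j : Matrix.SpecialLinearGroup (Fin 2) (ZMod p) :=
    ⟨!![a, b; b, -a], by simp [Matrix.det_fin_two_of]; linear_combination -hab⟩
  let m : Matrix.SpecialLinearGroup (Fin 2) (ZMod p) :=
    ⟨!![-1, 0; 0, -1], by simp [Matrix.det_fin_two_of]⟩
  have hii : i * i = m := Subtype.ext (by
    show !![(0 : ZMod p), -1; 1, 0] * !![0, -1; 1, 0] = !![-1, 0; 0, -1]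
    simp [Matrix.mul_fin_two])
  have hjj : j * j = m := Subtype.ext (by
    show !![a, b; b, -a] * !![a, b; b, -a] = !![-1, 0; 0, -1]
    rw [Matrix.mul_fin_two]
    ext k l
    fin_cases k <;> fin_cases l <;> simp <;> (first | linear_combination hab | ring1))
  have hm : m ≠ 1 := by
    intro h
    have := congrFun (congrFun (congrArg Subtype.val h) 0) 0
    simp [m] at this
    exact h2 (by linear_combination -this)
  have hmm : m * m = 1 := Subtype.ext (by
    show !![(-1 : ZMod p), 0; 0, -1] * !![-1, 0; 0, -1] = 1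
    simp [Matrix.mul_fin_two, ← Matrix.one_fin_two])
  have hji : j * i = i⁻¹ * j := by
    rw [eq_inv_mul_iff_mul_eq]
    apply Subtype.ext
    show !![(0 : ZMod p), -1; 1, 0] * (!![a, b; b, -a] * !![0, -1; 1, 0]) = !![a, b; b, -a]
    rw [Matrix.mul_fin_two, Matrix.mul_fin_two]
    ext k l
    fin_cases k <;> fin_cases l <;> simp
  refine ⟨i, j, hii ▸ hm, hjj ▸ hm, ?_, ?_, mul_inv_eq_iff_eq_mul.2 hji, fun hc => ?_⟩
  · rw [show i ^ 4 = (i * i) * (i * i) by simp [pow_succ, mul_assoc], hii, hmm]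
  · rw [show j ^ 4 = (j * j) * (j * j) by simp [pow_succ, mul_assoc], hjj, hmm]
  · rw [← hc.eq, eq_inv_mul_iff_mul_eq, ← mul_assoc, hii] at hji
    exact hm (mul_eq_right.1 hji)

theorem no_SL2_section (h : TwoDihedralLike G) {p : ℕ} [Fact p.Prime] (hp : p ≠ 2) :
    ¬ ∃ (H K : Subgroup G) (_ : (K.subgroupOf H).Normal),
      Nonempty ((H ⧸ K.subgroupOf H) ≃* Matrix.SpecialLinearGroup (Fin 2) (ZMod p)) := by
  rintro ⟨H, K, hK, ⟨e⟩⟩
  haveI := hK
  haveI : Fact (Nat.Prime 2) := ⟨Nat.prime_two⟩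
  obtain ⟨i, j, hi, hj, hi4, hj4, hij, hn⟩ := exists_quaternion_pair hp
  let f : H →* Matrix.SpecialLinearGroup (Fin 2) (ZMod p) :=
    e.toMonoidHom.comp (QuotientGroup.mk' (K.subgroupOf H))
  have hf : Function.Surjective f := e.surjective.comp (QuotientGroup.mk'_surjective _)
  haveI : Finite (Matrix.SpecialLinearGroup (Fin 2) (ZMod p)) := Finite.of_surjective f hf
  have hz : ∀ x : Matrix.SpecialLinearGroup (Fin 2) (ZMod p), x ^ 4 = 1 →
      IsPGroup 2 (Subgroup.zpowers x) := by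
    intro x hx
    rintro ⟨y, k, rfl⟩
    refine ⟨2, Subtype.ext ?_⟩
    show (x ^ k) ^ (2 ^ 2) = 1
    rw [← zpow_natCast, ← zpow_mul, mul_comm, zpow_mul, zpow_natCast]
    norm_num [hx]
  have hnorm : Subgroup.zpowers j ≤ Subgroup.normalizer (Subgroup.zpowers i : Set _) := by
    rw [Subgroup.zpowers_le]
    have himg : (Subgroup.zpowers i).map (MulAut.conj j).toMonoidHom = Subgroup.zpowers i := by
      rw [MonoidHom.map_zpowers]
      show Subgroup.zpowers (j * i * j⁻¹) = _
      rw [hij, Subgroup.zpowers_inv]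
    rw [Subgroup.mem_normalizer_iff]
    intro x
    constructor
    · intro hx
      exact himg ▸ Subgroup.mem_map_of_mem _ hx
    · intro hx
      have hx' : (MulAut.conj j) x ∈ (Subgroup.zpowers i).map (MulAut.conj j).toMonoidHom := by
        rw [himg]; exact hx
      obtain ⟨y, hy, e⟩ := hx'
      exact (MulAut.conj j).injective e ▸ hy
  have hQ := IsPGroup.to_sup_of_normal_left' (hz i hi4) (hz j hj4) hnorm
  obtain ⟨T, hT⟩ := hQ.exists_le_sylow
  obtain ⟨P, hP⟩ := Sylow.mapSurjective_surjective hf 2 T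
  have hmem : ∀ z ∈ Subgroup.zpowers i ⊔ Subgroup.zpowers j, ∃ x ∈ (P : Subgroup H), f x = z := by
    intro z hz
    have : z ∈ (P : Subgroup H).map f := by
      have h2 : (P.mapSurjective hf : Subgroup _) = (T : Subgroup (Matrix.SpecialLinearGroup (Fin 2) (ZMod p))) := by rw [hP]
      rw [Sylow.coe_mapSurjective] at h2
      exact h2 ▸ hT hz
    exact this
  obtain ⟨x, hx, hfx⟩ := hmem i (Subgroup.mem_sup_left (Subgroup.mem_zpowers i))
  obtain ⟨y, hy, hfy⟩ := hmem j (Subgroup.mem_sup_right (Subgroup.mem_zpowers j))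
  have hc := h ((P : Subgroup H).map H.subtype) (P.2.map _) x ⟨x, hx, rfl⟩ y ⟨y, hy, rfl⟩
    (fun e' => hi (by rw [← hfx, ← map_mul, show x * x = 1 from Subtype.ext e', map_one]))
    (fun e' => hj (by rw [← hfy, ← map_mul, show y * y = 1 from Subtype.ext e', map_one]))
  apply hn
  rw [← hfx, ← hfy]
  exact (show Commute x y from Subtype.ext hc.eq).map f

end CfsgLib.DGroup48
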