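import Mathlib
import Cfsg.Agent.Coprime.Basic
import Cfsg.Agent.Coprime.Minimal

/-!
The sector lemma: a four-group `⟨v, u⟩` acts without fixed points on a group `Q` of odd prime power
order, and `A ≤ C(v)`, `B ≤ C(u)` are commuting odd groups inverted by `u` resp. `v`.
Then `B` centralises `⁅Q, A⁆`.
-/

set_option autoImplicit false

namespace CfsgLib.DGroup48

open scoped commutatorElement

/-- The abelian core: `(β - 1)(α - 1) = 0`. -/
theorem sector_module {M : Type*} [CommGroup M] (α β μ ν : M ≃* M)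
    (hμμ : ∀ m, μ (μ m) = m) (hνν : ∀ m, ν (ν m) = m) (hμν : ∀ m, μ (ν m) = ν (μ m))
    (hfix : ∀ m, μ m = m → ν m = m → m = 1)
    (hμα : ∀ m, μ (α m) = α (μ m)) (hνα : ∀ m, ν (α m) = α.symm (ν m))
    (hμβ : ∀ m, μ (β m) = β.symm (μ m))
    (hαβ : ∀ m, α (β m) = β (α m))
    (hα2 : ∀ m, α (α m) = m → α m = m) (hβ2 : ∀ m, β (β m) = m → β m = m)
    (hM2 : ∀ m : M, m * m = 1 → m = 1) (m : M) :
    β (α m / m) = α m / m := by
  have hneg : ∀ z, μ z = z → ν z = z⁻¹ := by
    intro z hz
    refine eq_inv_of_mul_eq_one_left (hfix _ ?_ ?_)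
    · rw [map_mul, hμν, hz]
    · rw [map_mul, hνν, mul_comm]
  have hzfix : ∀ z, μ z = z → α z = z := by
    intro z hz
    apply hα2
    have h1 : ν (α z) = (α z)⁻¹ := hneg _ (by rw [hμα, hz])
    rw [hνα, hneg z hz, map_inv, inv_inj] at h1
    conv_lhs => rw [← h1]
    exact α.apply_symm_apply z
  -- the image of `α - 1` is inverted by `μ`
  have himg : ∀ z, μ (α z / z) = (α z / z)⁻¹ := by
    intro z
    have h1 := hzfix (μ z * z) (by rw [map_mul, hμμ, mul_comm])
    rw [map_mul] at h1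
    refine eq_inv_of_mul_eq_one_left ?_
    rw [map_div, hμα, div_mul_div_comm, h1, div_self']
  set x := α m / m with hx
  set y := β x / x with hy
  have h1 : μ y = y⁻¹ := by
    have : y = α (β m / m) / (β m / m) := by
      rw [hy, hx, map_div, map_div, hαβ, div_div_div_comm]
    rw [this]
    exact himg _
  have h2 : μ y = β.symm y := by
    rw [hy, map_div, hμβ, himg m, map_div, β.symm_apply_apply, map_inv, inv_div_inv]
  rw [h2] at h1
  have h3 : β y = y⁻¹ := by
    have := congrArg β h1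
    rw [β.apply_symm_apply, map_inv] at this
    calc β y = ((β y)⁻¹)⁻¹ := (inv_inv _).symm
      _ = y⁻¹ := by rw [← this]
  have h4 : β y = y := hβ2 y (by rw [h3, map_inv, h3, inv_inv])
  have h5 : y = 1 := hM2 y (by rw [← eq_inv_iff_mul_eq_one, ← h3, h4])
  exact div_eq_one.mp h5

variable {X : Type*} [Group X] [Finite X]

/-- Conjugation by a normalising element on the abelianisation. -/
noncomputable def actAb (T : Subgroup X) (g : Subgroup.normalizer (T : Set X)) :
    Abelianization T ≃* Abelianization T :=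
  ((Subgroup.normalizerMonoidHom T g).abelianizationCongr)

@[simp] theorem actAb_of (T : Subgroup X) (g : Subgroup.normalizer (T : Set X)) (t : T) :
    actAb T g (Abelianization.of t) = Abelianization.of (Subgroup.normalizerMonoidHom T g t) :=
  rfl

theorem sq_eq_one_of_odd_order {M : Type*} [Group M] [Finite M] (h : Odd (Nat.card M)) (m : M)
    (hm : m * m = 1) : m = 1 :=
  orderOf_eq_one_iff.1 (Nat.eq_one_of_dvd_coprimes
    ((Nat.coprime_two_left.2 h)) (orderOf_dvd_of_pow_eq_one (by rw [pow_two, hm])) (orderOf_dvd_natCard m))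

/-- An automorphism of odd order fixes what its square fixes. -/
theorem fixed_of_sq_fixed {M : Type*} (f : Equiv.Perm M) {n : ℕ} (hn : Odd n) (hf : f ^ n = 1) {m : M}
    (h : f (f m) = m) : f m = m := by
  obtain ⟨k, rfl⟩ := hn
  have : (f ^ (2 * k)) m = m := by
    clear hf
    induction k with
    | zero => rfl
    | succ k ih =>
      rw [Nat.mul_succ, pow_add, Equiv.Perm.mul_apply, pow_two, Equiv.Perm.mul_apply, h, ih]
  conv_lhs => rw [← this]
  rw [← Equiv.Perm.mul_apply, ← pow_succ', hf, Equiv.Perm.one_apply]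

/-- In a finite group a subgroup closed under conjugation by `g` is normalised by `g`. -/
theorem mem_normalizer_of_conj_mem {K : Subgroup X} {g : X} (h : ∀ x ∈ K, g * x * g⁻¹ ∈ K) :
    g ∈ Subgroup.normalizer (K : Set X) := by
  rw [Subgroup.mem_normalizer_iff_map_conj_eq]
  refine Subgroup.eq_of_le_of_card_ge ?_
    (Subgroup.card_map_of_injective (f := (MulAut.conj g).toMonoidHom) (MulAut.conj g).injective).ge
  rintro _ ⟨x, hx, rfl⟩
  exact h x hx

/-- The sector lemma. -/
theorem sector {r : ℕ} [Fact r.Prime] (hr2 : r ≠ 2) {Q A B : Subgroup X} (hQ : IsPGroup r Q)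
    {v u : X} (hv : v * v = 1) (hu : u * u = 1) (hvu : Commute v u)
    (hvQ : v ∈ Subgroup.normalizer (Q : Set X)) (huQ : u ∈ Subgroup.normalizer (Q : Set X))
    (hfpf : ∀ q ∈ Q, Commute v q → Commute u q → q = 1)
    (hAQ : A ≤ Subgroup.normalizer (Q : Set X)) (hBQ : B ≤ Subgroup.normalizer (Q : Set X))
    (hAc : (Nat.card A).Coprime r) (hBc : (Nat.card B).Coprime r)
    (hAo : Odd (Nat.card A)) (hBo : Odd (Nat.card B))
    (hva : ∀ a ∈ A, v * a * v⁻¹ = a) (hua : ∀ a ∈ A, u * a * u⁻¹ = a⁻¹)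
    (hvb : ∀ b ∈ B, v * b * v⁻¹ = b⁻¹)
    (hab : ∀ a ∈ A, ∀ b ∈ B, Commute a b) :
    ⁅Q, A⁆ ≤ Subgroup.centralizer (B : Set X) := by
  classical
  set T := ⁅Q, A⁆ with hT
  have hTQ : T ≤ Q := Coprime.commutator_le_of_le_normalizer hAQ
  have hTp : IsPGroup r T := hQ.to_le hTQ
  have hAT : A ≤ Subgroup.normalizer (T : Set X) := Subgroup.normalizer_commutator_ge_right Q A
  have hnorm : ∀ g : X, g ∈ Subgroup.normalizer (Q : Set X) → g ∈ Subgroup.normalizer (A : Set X) →
      g ∈ Subgroup.normalizer (T : Set X) := by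
    intro g h1 h2
    rw [Subgroup.mem_normalizer_iff_map_conj_eq] at h1 h2 ⊢
    rw [hT, Subgroup.map_commutator, h1, h2]
  have hBT : B ≤ Subgroup.normalizer (T : Set X) := fun b hb => hnorm b (hBQ hb)
    (mem_normalizer_of_conj_mem fun a ha => by
      rw [← (hab a ha b hb).eq, mul_inv_cancel_right]; exact ha)
  have hvA : v ∈ Subgroup.normalizer (A : Set X) :=
    mem_normalizer_of_conj_mem fun a ha => by rw [hva a ha]; exact ha
  have huA : u ∈ Subgroup.normalizer (A : Set X) :=
    mem_normalizer_of_conj_mem fun a ha => by rw [hua a ha]; exact inv_mem ha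
  have hvT := hnorm v hvQ hvA
  have huT := hnorm u huQ huA
  haveI : Finite (Abelianization T) := Finite.of_surjective Abelianization.of QuotientGroup.mk_surjective
  have hodd : Odd (Nat.card (Abelianization T)) := by
    have h1 : IsPGroup r (Abelianization T) := hTp.to_quotient _
    obtain ⟨n, hn⟩ := h1.exists_card_eq
    rw [hn]
    exact ((Fact.out : r.Prime).odd_of_ne_two hr2).pow
  -- the four automorphisms
  have hact : ∀ g h : Subgroup.normalizer (T : Set X), ∀ m, actAb T (g * h) m = actAb T g (actAb T h m) := by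
    intro g h m
    obtain ⟨t, rfl⟩ := QuotientGroup.mk_surjective m
    show actAb T (g * h) (Abelianization.of t) = _
    rw [actAb_of, map_mul]
    rfl
  have hone : ∀ m, actAb T 1 m = m := by
    intro m
    obtain ⟨t, rfl⟩ := QuotientGroup.mk_surjective m
    show actAb T 1 (Abelianization.of t) = Abelianization.of t
    rw [actAb_of, map_one]
    rfl
  have hsymm : ∀ g : Subgroup.normalizer (T : Set X), ∀ m, (actAb T g).symm m = actAb T g⁻¹ m := by
    intro g m
    apply (actAb T g).injective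
    rw [MulEquiv.apply_symm_apply, ← hact, mul_inv_cancel, hone]
  have heq : ∀ g h : Subgroup.normalizer (T : Set X), (g : X) = h → ∀ m, actAb T g m = actAb T h m := by
    intro g h e m; rw [Subtype.ext e]
  have hsq : ∀ (g : Subgroup.normalizer (T : Set X)) (K : Subgroup X), (g : X) ∈ K → Odd (Nat.card K) →
      ∀ m, actAb T g (actAb T g m) = m → actAb T g m = m := by
    intro g K hg hK m hm
    let ρ : Subgroup.normalizer (T : Set X) →* Equiv.Perm (Abelianization T) :=
      MonoidHom.mk' (fun g => (actAb T g).toEquiv) fun a b => Equiv.ext (hact a b)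
    refine fixed_of_sq_fixed (ρ g) hK ?_ hm
    rw [← map_pow, show g ^ Nat.card K = 1 from ?_, map_one]
    refine Subtype.ext ?_
    have h1 := pow_card_eq_one' (G := K) (x := ⟨(g : X), hg⟩)
    rw [Subgroup.coe_pow, Subgroup.coe_one]
    exact congrArg Subtype.val h1
  -- fixed points on the quotient
  set V := Subgroup.zpowers v ⊔ Subgroup.zpowers u with hV
  have hV2 : IsPGroup 2 V := by
    have hz : ∀ w : X, w * w = 1 → IsPGroup 2 (Subgroup.zpowers w) := fun w hw x => ⟨1, by
      obtain ⟨x, hx⟩ := x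
      obtain ⟨i, rfl⟩ := hx
      refine Subtype.ext ?_
      show (w ^ i) ^ (2 ^ 1) = 1
      rw [pow_one, pow_two, ← zpow_add, ← two_mul, zpow_mul, zpow_two, hw, one_zpow]⟩
    refine (hz v hv).to_sup_of_normal_right' (hz u hu) ?_
    rw [Subgroup.zpowers_le]
    refine (Subgroup.mem_centralizer_iff.2 ?_ : v ∈ Subgroup.centralizer ((Subgroup.zpowers u : Subgroup X) : Set X))
      |> (Subgroup.centralizer_le_normalizer _ ·)
    rintro _ ⟨i, rfl⟩
    exact (hvu.zpow_right i).eq.symm
  have hTfix : ∀ m : Abelianization T, actAb T ⟨v, hvT⟩ m = m → actAb T ⟨u, huT⟩ m = m → m = 1 := by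
    intro m h1 h2
    obtain ⟨t, rfl⟩ := QuotientGroup.mk_surjective m
    set N := (commutator ↥T).map T.subtype with hN
    have hNT : N ≤ T := Subgroup.map_subtype_le _
    have hVN : V ≤ Subgroup.normalizer (N : Set X) := by
      have hh : ∀ w ∈ Subgroup.normalizer (T : Set X), w ∈ Subgroup.normalizer (N : Set X) := by
        intro w hw
        rw [hN, Subgroup.map_subtype_commutator]
        rw [Subgroup.mem_normalizer_iff_map_conj_eq] at hw ⊢
        rw [Subgroup.map_commutator, hw]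
      rw [hV]
      exact sup_le (Subgroup.zpowers_le.2 (hh v hvT)) (Subgroup.zpowers_le.2 (hh u huT))
    have hcop : (Nat.card V).Coprime (Nat.card N) := by
      obtain ⟨a, ha⟩ := hV2.exists_card_eq
      obtain ⟨b, hb⟩ := (hTp.to_le hNT).exists_card_eq
      rw [ha, hb]
      exact ((Nat.coprime_primes Nat.prime_two Fact.out).2 (Ne.symm hr2)).pow a b
    let K : Subgroup X :=
      { carrier := {w | w ∈ Subgroup.normalizer (N : Set X) ∧ ⁅(t : X), w⁆ ∈ N}
        one_mem' := ⟨one_mem _, by simp⟩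
        mul_mem' := fun {a b} ha hb => ⟨mul_mem ha.1 hb.1, by
          rw [show ⁅(t : X), a * b⁆ = ⁅(t : X), a⁆ * (a * ⁅(t : X), b⁆ * a⁻¹) by
            simp only [commutatorElement_def]; group]
          exact mul_mem ha.2 ((Subgroup.mem_normalizer_iff.1 ha.1 _).1 hb.2)⟩
        inv_mem' := fun {a} ha => ⟨inv_mem ha.1, by
          rw [show ⁅(t : X), a⁻¹⁆ = a⁻¹ * ⁅(t : X), a⁆⁻¹ * a⁻¹⁻¹ by
            simp only [commutatorElement_def]; group]
          exact (Subgroup.mem_normalizer_iff.1 (inv_mem ha.1) _).1 (inv_mem ha.2)⟩ }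
    have hh : ∀ w (hw : w ∈ Subgroup.normalizer (T : Set X)),
        actAb T ⟨w, hw⟩ (QuotientGroup.mk t) = QuotientGroup.mk t → ⁅(t : X), w⁆ ∈ N := by
      intro w hw h
      have h' : ((QuotientGroup.mk (Subgroup.normalizerMonoidHom T ⟨w, hw⟩ t)) : Abelianization T) =
          QuotientGroup.mk t := h
      rw [eq_comm, QuotientGroup.eq] at h'
      have h'' : (t : T) * (t⁻¹ * Subgroup.normalizerMonoidHom T ⟨w, hw⟩ t)⁻¹ * t⁻¹ ∈ commutator T :=
        (inferInstance : (commutator T).Normal).conj_mem _ (inv_mem h') t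
      refine ⟨_, h'', ?_⟩
      show (t : X) * ((t : X)⁻¹ * (w * t * w⁻¹))⁻¹ * (t : X)⁻¹ = ⁅(t : X), w⁆
      rw [commutatorElement_def]; group
    have hvN := hVN (hV ▸ Subgroup.mem_sup_left (Subgroup.mem_zpowers v))
    have huN := hVN (hV ▸ Subgroup.mem_sup_right (Subgroup.mem_zpowers u))
    have hVK : V ≤ K := hV ▸ sup_le (Subgroup.zpowers_le.2 ⟨hvN, hh v hvT h1⟩)
      (Subgroup.zpowers_le.2 ⟨huN, hh u huT h2⟩)
    have hall : ∀ w ∈ V, ⁅(t : X), w⁆ ∈ N := fun w hw => (hVK hw).2
    obtain ⟨n, hn, hc⟩ := Coprime.exists_mul_mem_centralizer hVN hcop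
      (Or.inl (Coprime.isSolvable_of_isPGroup hV2)) hall
    have h1' : n * (t : X) = 1 := hfpf _ (hTQ (mul_mem (hNT hn) t.2))
      (Subgroup.mem_centralizer_iff.1 hc v (hV ▸ Subgroup.mem_sup_left (Subgroup.mem_zpowers v)))
      (Subgroup.mem_centralizer_iff.1 hc u (hV ▸ Subgroup.mem_sup_right (Subgroup.mem_zpowers u)))
    refine (QuotientGroup.eq_one_iff t).2 ?_
    have ht : (t : X) ∈ N := by rw [← inv_eq_of_mul_eq_one_right h1']; exact inv_mem hn
    obtain ⟨t', ht', e⟩ := ht
    rwa [← Subtype.ext e]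
  -- conclusion
  have hgen : T = ⁅T, A⁆ := (Coprime.commutator_commutator_eq hAQ
    (by obtain ⟨n, hn⟩ := hQ.exists_card_eq; rw [hn]; exact hAc.pow_right n)
    (Or.inr (Coprime.isSolvable_of_isPGroup hQ))).symm
  refine Coprime.le_centralizer_of_frattini hBT (by
    obtain ⟨n, hn⟩ := hTp.exists_card_eq; rw [hn]; exact hBc.pow_right n) ?_
  refine le_trans ?_ (Coprime.commutator_le_frattini_map hTp)
  rw [← Subgroup.map_subtype_commutator]
  set N := (commutator ↥T).map T.subtype with hN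
  -- the subgroup of elements of `T` fixed modulo the derived group
  have key : ∀ (t : T) (b : X) (hb : b ∈ B) (a : X) (ha : a ∈ A),
      actAb T ⟨b, hBT hb⟩ (actAb T ⟨a, hAT ha⟩ (QuotientGroup.mk t) / QuotientGroup.mk t)
      = actAb T ⟨a, hAT ha⟩ (QuotientGroup.mk t) / QuotientGroup.mk t := by
    intro t b hb a ha
    refine sector_module _ _ (actAb T ⟨v, hvT⟩) (actAb T ⟨u, huT⟩) ?_ ?_ ?_ hTfix ?_ ?_ ?_ ?_ ?_ ?_
      (sq_eq_one_of_odd_order hodd) _
    · intro m; rw [← hact, heq _ 1 (by simpa using hv), hone]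
    · intro m; rw [← hact, heq _ 1 (by simpa using hu), hone]
    · intro m; rw [← hact, ← hact]; exact heq _ _ hvu.eq m
    · intro m; rw [← hact, ← hact]; exact heq _ _ (mul_inv_eq_iff_eq_mul.1 (hva a ha)) m
    · intro m; rw [hsymm, ← hact, ← hact]; exact heq _ _ (mul_inv_eq_iff_eq_mul.1 (hua a ha)) m
    · intro m; rw [hsymm, ← hact, ← hact]; exact heq _ _ (mul_inv_eq_iff_eq_mul.1 (hvb b hb)) m
    · intro m; rw [← hact, ← hact]; exact heq _ _ (hab a ha b hb).eq m
    · exact hsq _ A ha hAo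
    · exact hsq _ B hb hBo
  -- `B` fixes the image of every generator of `T`
  rw [Subgroup.commutator_le]
  intro t ht b hb
  have hK : T ≤ (MonoidHom.eqLocus ((actAb T ⟨b, hBT hb⟩).toMonoidHom.comp (QuotientGroup.mk' _))
      (QuotientGroup.mk' (commutator ↥T))).map T.subtype := by
    conv_lhs => rw [hgen]
    rw [Subgroup.commutator_le]
    intro s hs a ha
    refine ⟨⟨⁅s, a⁆, Coprime.commutator_le_of_le_normalizer hAT
      (Subgroup.commutator_mem_commutator hs ha)⟩, ?_, rfl⟩
    have e : (QuotientGroup.mk' (commutator ↥T)) ⟨⁅s, a⁆, Coprime.commutator_le_of_le_normalizer hAT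
        (Subgroup.commutator_mem_commutator hs ha)⟩ =
        (actAb T ⟨a, hAT ha⟩ (QuotientGroup.mk ⟨s, hs⟩) / QuotientGroup.mk ⟨s, hs⟩)⁻¹ := by
      rw [show (⟨⁅s, a⁆, _⟩ : T) = ⟨s, hs⟩ * (Subgroup.normalizerMonoidHom T ⟨a, hAT ha⟩ ⟨s, hs⟩)⁻¹ from
        Subtype.ext (by
          show ⁅s, a⁆ = s * (a * s * a⁻¹)⁻¹
          rw [commutatorElement_def]; group), map_mul, map_inv]
      exact (div_eq_mul_inv _ _).symm.trans (inv_div _ _).symm
    show (actAb T ⟨b, hBT hb⟩) (QuotientGroup.mk' _ _) = QuotientGroup.mk' _ _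
    rw [e]
    exact (map_inv (actAb T ⟨b, hBT hb⟩) _).trans (congrArg _ (key _ b hb a ha))
  obtain ⟨t', ht', rfl⟩ := hK ht
  have h : actAb T ⟨b, hBT hb⟩ (QuotientGroup.mk t') = QuotientGroup.mk t' := ht'
  have h' : ((QuotientGroup.mk (Subgroup.normalizerMonoidHom T ⟨b, hBT hb⟩ t')) : Abelianization T) =
      QuotientGroup.mk t' := h
  rw [eq_comm, QuotientGroup.eq] at h'
  refine ⟨_, (inferInstance : (commutator T).Normal).conj_mem _ (inv_mem h') t', ?_⟩
  show (t' : X) * ((t' : X)⁻¹ * (b * t' * b⁻¹))⁻¹ * (t' : X)⁻¹ = ⁅(t' : X), b⁆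
  rw [commutatorElement_def]; group

end CfsgLib.DGroup48
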