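import Mathlib
import Cfsg.Agent.Coprime.Sylow
import Cfsg.Agent.Coprime.Generation
import Cfsg.Agent.DGroup48.Sector
import Cfsg.Agent.S3796

/-!
A four-group `⟨v, u⟩` acting without fixed points on a group `W` of odd order.
-/

set_option autoImplicit false

namespace CfsgLib.DGroup48

variable {X : Type*} [Group X]

/-- Two distinct commuting involutions. -/
structure Frame (v u : X) : Prop where
  ov : orderOf v = 2
  ou : orderOf u = 2
  ne : v ≠ u
  comm : Commute v u

theorem mul_self_of_orderOf {v : X} (h : orderOf v = 2) : v * v = 1 := by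
  rw [← pow_two, ← h, pow_orderOf_eq_one]

theorem inv_of_orderOf {v : X} (h : orderOf v = 2) : v⁻¹ = v :=
  inv_eq_of_mul_eq_one_right (mul_self_of_orderOf h)

theorem ne_one_of_orderOf {v : X} (h : orderOf v = 2) : v ≠ 1 := fun e => by simp [e] at h

theorem orderOf_two_of_mul_self {v : X} (h : v * v = 1) (h1 : v ≠ 1) : orderOf v = 2 :=
  orderOf_eq_prime (by rw [pow_two, h]) h1

namespace Frame

variable {v u : X}

theorem symm (F : Frame v u) : Frame u v := ⟨F.ou, F.ov, F.ne.symm, F.comm.symm⟩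

theorem mul_ne_one (F : Frame v u) : v * u ≠ 1 := fun h =>
  F.ne (by rw [← inv_of_orderOf F.ou]; exact eq_inv_of_mul_eq_one_left h)

theorem orderOf_mul (F : Frame v u) : orderOf (v * u) = 2 :=
  orderOf_two_of_mul_self
    (by rw [← pow_two, F.comm.mul_pow, pow_two, pow_two, mul_self_of_orderOf F.ov, mul_self_of_orderOf F.ou, one_mul])
    F.mul_ne_one

theorem third (F : Frame v u) : Frame v (v * u) :=
  ⟨F.ov, F.orderOf_mul, fun h => ne_one_of_orderOf F.ou (mul_eq_left.1 h.symm),
    (Commute.refl v).mul_right F.comm⟩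

theorem conj (F : Frame v u) (g : X) : Frame (g * v * g⁻¹) (g * u * g⁻¹) :=
  ⟨((MulAut.conj g).orderOf_eq v).trans F.ov, ((MulAut.conj g).orderOf_eq u).trans F.ou,
    fun h => F.ne (mul_left_cancel (mul_right_cancel h)), by
      simpa [MulAut.conj_apply] using F.comm.map (MulAut.conj g).toMonoidHom⟩

/-- The four-group of a frame. -/
def four (F : Frame v u) : Subgroup X where
  carrier := {1, v, u, v * u}
  one_mem' := Or.inl rfl
  mul_mem' := by
    have hv := mul_self_of_orderOf F.ov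
    have hu := mul_self_of_orderOf F.ou
    have h1 : u * v = v * u := F.comm.eq.symm
    have h2 : v * (v * u) = u := by rw [← mul_assoc, hv, one_mul]
    have h3 : v * u * v = u := by rw [mul_assoc, h1, h2]
    have h4 : u * (v * u) = v := by rw [← mul_assoc, h1, mul_assoc, hu, mul_one]
    have h5 : v * u * u = v := by rw [mul_assoc, hu, mul_one]
    have h6 : v * u * (v * u) = 1 := by rw [← mul_assoc, h3, hu]
    intro a b ha hb
    simp only [Set.mem_insert_iff, Set.mem_singleton_iff] at ha hb ⊢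
    rcases ha with rfl | rfl | rfl | rfl <;> rcases hb with rfl | rfl | rfl | rfl <;>
      simp [hv, hu, h1, h2, h3, h4, h5, h6]
  inv_mem' := by
    intro a ha
    simp only [Set.mem_insert_iff, Set.mem_singleton_iff] at ha ⊢
    rcases ha with rfl | rfl | rfl | rfl
    · simp
    · simp [inv_of_orderOf F.ov]
    · simp [inv_of_orderOf F.ou]
    · simp [inv_of_orderOf F.orderOf_mul]

theorem mem_four (F : Frame v u) {a : X} : a ∈ F.four ↔ a = 1 ∨ a = v ∨ a = u ∨ a = v * u := Iff.rfl

theorem four_comm (F : Frame v u) : IsMulCommutative F.four := by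
  refine ⟨⟨fun a b => Subtype.ext ?_⟩⟩
  show (a : X) * b = b * a
  rcases F.mem_four.1 a.2 with h | h | h | h <;> rcases F.mem_four.1 b.2 with h' | h' | h' | h' <;>
    rw [h, h'] <;>
    first
      | simp only [one_mul, mul_one]
      | exact F.comm.eq
      | exact F.comm.eq.symm
      | exact ((Commute.refl v).mul_right F.comm).eq
      | exact ((Commute.refl v).mul_right F.comm).eq.symm
      | exact (F.comm.symm.mul_right (Commute.refl u)).eq
      | exact (F.comm.symm.mul_right (Commute.refl u)).eq.symm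

theorem card_four (F : Frame v u) : Nat.card F.four = 4 := by
  have h1 := ne_one_of_orderOf F.ov
  have h2 := ne_one_of_orderOf F.ou
  have h3 := F.mul_ne_one
  have h4 : v ≠ v * u := fun h => h2 (mul_eq_left.1 h.symm)
  have h5 : u ≠ v * u := fun h => h1 (mul_eq_right.1 h.symm)
  show Nat.card ↥({1, v, u, v * u} : Set X) = 4
  rw [Nat.card_coe_set_eq]
  classical
  rw [show ({1, v, u, v * u} : Set X) = (({1, v, u, v * u} : Finset X) : Set X) by simp,
    Set.ncard_coe_finset]
  simp [h1.symm, h2.symm, h3.symm, F.ne, h4, h5]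

theorem sq_four (F : Frame v u) {a : X} (ha : a ∈ F.four) : a ^ 2 = 1 := by
  rcases F.mem_four.1 ha with rfl | rfl | rfl | rfl
  · simp
  · rw [pow_two, mul_self_of_orderOf F.ov]
  · rw [pow_two, mul_self_of_orderOf F.ou]
  · rw [pow_two, mul_self_of_orderOf F.orderOf_mul]

theorem isPGroup_four (F : Frame v u) : IsPGroup 2 F.four :=
  IsPGroup.of_card (n := 2) (by rw [F.card_four]; norm_num)

theorem not_isCyclic_four (F : Frame v u) : ¬ IsCyclic F.four := fun h => by
  obtain ⟨g, hg⟩ := h.exists_generator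
  have h1 : orderOf g ≤ 2 :=
    Nat.le_of_dvd (by norm_num) (orderOf_dvd_of_pow_eq_one (Subtype.ext (F.sq_four g.2)))
  rw [orderOf_eq_card_of_forall_mem_zpowers hg, F.card_four] at h1
  omega

theorem v_mem (F : Frame v u) : v ∈ F.four := F.mem_four.2 (Or.inr (Or.inl rfl))
theorem u_mem (F : Frame v u) : u ∈ F.four := F.mem_four.2 (Or.inr (Or.inr (Or.inl rfl)))

theorem four_le (F : Frame v u) {K : Subgroup X} (hv : v ∈ K) (hu : u ∈ K) : F.four ≤ K := by
  intro a ha
  rcases F.mem_four.1 ha with rfl | rfl | rfl | rfl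
  exacts [one_mem _, hv, hu, mul_mem hv hu]

end Frame

variable [Finite X]

theorem coprime_two_group {V W : Subgroup X} (hV : IsPGroup 2 V) (hW : Odd (Nat.card W)) :
    (Nat.card V).Coprime (Nat.card W) := by
  obtain ⟨n, hn⟩ := hV.exists_card_eq
  rw [hn]
  exact (Nat.coprime_two_left.2 hW).pow_left n

theorem odd_of_le {W K : Subgroup X} (hW : Odd (Nat.card W)) (h : K ≤ W) : Odd (Nat.card K) :=
  hW.of_dvd_nat (Subgroup.card_dvd_of_le h)

theorem odd_orderOf_of_mem {W : Subgroup X} (hW : Odd (Nat.card W)) {w : X} (hw : w ∈ W) :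
    Odd (orderOf w) :=
  hW.of_dvd_nat (W.orderOf_dvd_natCard hw)

theorem eq_one_of_mul_self {W : Subgroup X} (hW : Odd (Nat.card W)) {w : X} (hw : w ∈ W)
    (h : w * w = 1) : w = 1 :=
  congrArg Subtype.val (sq_eq_one_of_odd_order hW ⟨w, hw⟩ (Subtype.ext h))

/-- An involution without fixed points inverts a group of odd order. -/
theorem inverts_of_fpf {W : Subgroup X} (hW : Odd (Nat.card W)) {u : X} (hu : u * u = 1)
    (huW : u ∈ Subgroup.normalizer (W : Set X)) (h : ∀ w ∈ W, Commute u w → w = 1) :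
    ∀ w ∈ W, u * w * u⁻¹ = w⁻¹ := by
  have huinv : u⁻¹ = u := inv_eq_of_mul_eq_one_right hu
  have hmem : ∀ w ∈ W, u * w * u⁻¹ ∈ W := fun w hw => (Subgroup.mem_normalizer_iff.1 huW w).1 hw
  let f : W → W := fun g => ⟨(g : X)⁻¹ * (u * g * u⁻¹), mul_mem (inv_mem g.2) (hmem g g.2)⟩
  have hf : Function.Injective f := by
    intro g k e
    have e' : (g : X)⁻¹ * (u * g * u⁻¹) = (k : X)⁻¹ * (u * k * u⁻¹) := congrArg Subtype.val e
    have h1 : u * ((k : X) * (g : X)⁻¹) * u⁻¹ = (k : X) * (g : X)⁻¹ := by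
      calc u * ((k : X) * (g : X)⁻¹) * u⁻¹ = (k : X) * ((k : X)⁻¹ * (u * k * u⁻¹)) * (u * g * u⁻¹)⁻¹ := by
            group
        _ = (k : X) * ((g : X)⁻¹ * (u * g * u⁻¹)) * (u * g * u⁻¹)⁻¹ := by rw [e']
        _ = _ := by group
    have h2 := h _ (mul_mem k.2 (inv_mem g.2)) (mul_inv_eq_iff_eq_mul.1 h1)
    exact Subtype.ext (eq_of_mul_inv_eq_one h2).symm
  intro w hw
  obtain ⟨g, hg⟩ := (Finite.injective_iff_surjective.1 hf) ⟨w, hw⟩
  have hg' : (g : X)⁻¹ * (u * g * u⁻¹) = w := congrArg Subtype.val hg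
  rw [← hg']
  simp only [mul_inv_rev, inv_inv, huinv]
  simp [mul_assoc, hu]

/-- Generation by the three centralisers. -/
theorem gen_le {v u : X} (F : Frame v u) {W K : Subgroup X} (hW : Odd (Nat.card W))
    (hv : v ∈ Subgroup.normalizer (W : Set X)) (hu : u ∈ Subgroup.normalizer (W : Set X))
    (h1 : ∀ w ∈ W, Commute v w → w ∈ K) (h2 : ∀ w ∈ W, Commute u w → w ∈ K)
    (h3 : ∀ w ∈ W, Commute (v * u) w → w ∈ K) : W ≤ K := by
  refine Coprime.le_of_centralizers F.four_comm F.not_isCyclic_four (F.four_le hv hu)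
    (coprime_two_group F.isPGroup_four hW) fun a ha ha1 w hw => ?_
  obtain ⟨hw1, hw2⟩ := Subgroup.mem_inf.1 hw
  have hc : Commute a w := Subgroup.mem_centralizer_singleton_iff.1 hw2 |>.symm
  rcases F.mem_four.1 ha with rfl | rfl | rfl | rfl
  exacts [absurd rfl ha1, h1 w hw1 hc, h2 w hw1 hc, h3 w hw1 hc]

/-- A fixed point free four-group has a unique invariant Sylow subgroup, containing all invariant
`r`-subgroups. -/
theorem exists_inv_sylow {v u : X} (F : Frame v u) {W : Subgroup X} (hW : Odd (Nat.card W))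
    (hv : v ∈ Subgroup.normalizer (W : Set X)) (hu : u ∈ Subgroup.normalizer (W : Set X))
    (hfix : ∀ w ∈ W, Commute v w → Commute u w → w = 1) (r : ℕ) [Fact r.Prime] :
    ∃ P : Sylow r W, F.four ≤ Subgroup.normalizer (((P : Subgroup W).map W.subtype : Subgroup X) : Set X) ∧
      ∀ R : Subgroup X, R ≤ W → IsPGroup r R → F.four ≤ Subgroup.normalizer (R : Set X) →
        R ≤ (P : Subgroup W).map W.subtype := by
  have hcop := coprime_two_group F.isPGroup_four hW
  have hsol : Group.IsSolvable F.four ∨ Group.IsSolvable W :=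
    Or.inl (Coprime.isSolvable_of_isPGroup F.isPGroup_four)
  obtain ⟨P, hP⟩ := Coprime.exists_invariant_sylow (p := r) (F.four_le hv hu) hcop hsol
  refine ⟨P, hP, fun R hRW hRp hR => ?_⟩
  obtain ⟨Q, hQ, hRQ⟩ := Coprime.le_invariant_sylow (F.four_le hv hu) hcop hsol R hRW hRp hR
  obtain ⟨c, hc, e⟩ := Coprime.invariant_sylow_conj (F.four_le hv hu) hcop hsol Q P hQ hP
  obtain ⟨hcW, hcC⟩ := Subgroup.mem_inf.1 hc
  have hc1 : c = 1 := hfix c hcW (Subgroup.mem_centralizer_iff.1 hcC v F.v_mem)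
    (Subgroup.mem_centralizer_iff.1 hcC u F.u_mem)
  rw [hc1, Coprime.map_conj_one] at e
  exact e ▸ hRQ

/-- Ward: a normal nilpotent subgroup with nilpotent quotient. -/
theorem exists_nilpotent_normal {v u : X} (F : Frame v u) {W : Subgroup X} (hW : Group.IsSolvable W)
    (hWo : Odd (Nat.card W))
    (hv : v ∈ Subgroup.normalizer (W : Set X)) (hu : u ∈ Subgroup.normalizer (W : Set X))
    (hfix : ∀ w ∈ W, Commute v w → Commute u w → w = 1) :
    ∃ N : Subgroup W, N.Normal ∧ Group.IsNilpotent N ∧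
      ∃ k : ℕ, (⊤ : Subgroup W).lowerCentralSeries k ≤ N := by
  classical
  haveI : Fact (Nat.Prime 2) := ⟨Nat.prime_two⟩
  let ρ : F.four →* MulAut W :=
    (Subgroup.normalizerMonoidHom W).comp (Subgroup.inclusion (F.four_le hv hu))
  set A := ρ.range with hA
  have hpow : ∀ a ∈ A, a ^ 2 = 1 := by
    rintro _ ⟨a, rfl⟩
    rw [← map_pow, show a ^ 2 = 1 from Subtype.ext (F.sq_four a.2), map_one]
  have hcomm : IsMulCommutative A := ⟨⟨by
    rintro ⟨_, a, rfl⟩ ⟨_, b, rfl⟩
    refine Subtype.ext ?_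
    show ρ a * ρ b = ρ b * ρ a
    rw [← map_mul, ← map_mul, show a * b = b * a from F.four_comm.is_comm.comm a b]⟩⟩
  by_cases hinj : Function.Injective ρ
  · have hcard : Nat.card A = 2 ^ 2 := by
      rw [← Nat.card_congr (MonoidHom.ofInjective hinj).toEquiv, F.card_four]; norm_num
    obtain ⟨S, hS0, hS2, -, hSn, hSc⟩ := Cfsg.Agent.S3796.result hW Nat.prime_two A ⟨hcomm, hpow⟩ hcard
      (fun g hg => by
        have hc : ∀ a : F.four, Commute (a : X) g := fun a =>
          mul_inv_eq_iff_eq_mul.1 (congrArg Subtype.val (hg _ ⟨a, rfl⟩))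
        exact Subtype.ext (hfix g g.2 (hc ⟨v, F.v_mem⟩) (hc ⟨u, F.u_mem⟩)))
    refine ⟨S 1, hSn 1, ?_, ?_⟩
    · obtain ⟨k, hk⟩ := hSc 0
      simp only [Fin.succ_zero_eq_one, Fin.castSucc_zero, hS0] at hk
      exact (Subgroup.isNilpotent_iff_lowerCentralSeries (S 1)).2 ⟨k, le_bot_iff.1 hk⟩
    · obtain ⟨k, hk⟩ := hSc 1
      refine ⟨k, ?_⟩
      rwa [show (1 : Fin 2).succ = Fin.last 2 from rfl, hS2] at hk
  · -- a non-faithful four-group centralises, hence `W` is abelian
    rw [← MonoidHom.ker_eq_bot_iff, Subgroup.eq_bot_iff_forall] at hinj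
    push Not at hinj
    obtain ⟨a, ha, ha1⟩ := hinj
    have hfx : ∀ w ∈ W, Commute (a : X) w := fun w hw => by
      have h := congrArg Subtype.val (DFunLike.congr_fun (MonoidHom.mem_ker.1 ha) (⟨w, hw⟩ : W))
      exact mul_inv_eq_iff_eq_mul.1 h
    obtain ⟨b, hb, hb1, hbf⟩ : ∃ b ∈ Subgroup.normalizer (W : Set X), b * b = 1 ∧
        ∀ w ∈ W, Commute b w → w = 1 := by
      rcases F.mem_four.1 a.2 with h | h | h | h
      · exact absurd (Subtype.ext h) ha1
      · exact ⟨u, hu, mul_self_of_orderOf F.ou, fun w hw hc => hfix w hw (h ▸ hfx w hw) hc⟩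
      · exact ⟨v, hv, mul_self_of_orderOf F.ov, fun w hw hc => hfix w hw hc (h ▸ hfx w hw)⟩
      · refine ⟨v, hv, mul_self_of_orderOf F.ov, fun w hw hc => hfix w hw hc ?_⟩
        have h2 : Commute (v * u) w := h ▸ hfx w hw
        have h3 := hc.inv_left.mul_left h2
        rwa [inv_mul_cancel_left] at h3
    have hinvb := inverts_of_fpf hWo hb1 hb hbf
    haveI : IsMulCommutative W := ⟨⟨fun x y => by
      refine Subtype.ext (inv_injective (?_ : ((x : X) * y)⁻¹ = ((y : X) * x)⁻¹))
      rw [← hinvb _ (mul_mem x.2 y.2), mul_inv_rev, ← hinvb _ x.2, ← hinvb _ y.2]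
      group⟩⟩
    letI : CommGroup W := { (inferInstance : Group W) with mul_comm := IsMulCommutative.is_comm.comm }
    refine ⟨⊤, inferInstance, inferInstance, 0, le_top⟩

end CfsgLib.DGroup48
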