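import Mathlib
import Cfsg.Agent.Coprime.Generation
import Cfsg.Agent.DGroup48.Sector

/-!
General facts used for D-group centralisers.
-/

set_option autoImplicit false

namespace CfsgLib.DGroup48

variable {X : Type*} [Group X] [Finite X]

theorem odd_orderOf_conj (g x : X) (h : Odd (orderOf x)) : Odd (orderOf (g * x * g⁻¹)) := by
  have := (MulAut.conj g).orderOf_eq x
  rw [MulAut.conj_apply] at this
  rwa [this]

/-- A group without elements of order two has odd order. -/
theorem odd_card_of_forall {K : Subgroup X} (h : ∀ x ∈ K, Odd (orderOf x)) : Odd (Nat.card K) := by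
  by_contra hn
  haveI : Fact (Nat.Prime 2) := ⟨Nat.prime_two⟩
  obtain ⟨x, hx⟩ := exists_prime_orderOf_dvd_card' (G := K) 2
    (even_iff_two_dvd.1 (Nat.not_odd_iff_even.1 hn))
  have := h x x.2
  rw [Subgroup.orderOf_coe, hx] at this
  exact absurd this (by decide)

/-- An element of odd order lies in every subgroup containing its square. -/
theorem mem_of_sq_mem {K : Subgroup X} {x : X} (h : Odd (orderOf x)) (h2 : x * x ∈ K) : x ∈ K := by
  obtain ⟨k, hk⟩ := h
  have : (x * x) ^ (k + 1) = x := by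
    rw [← pow_two, ← pow_mul, mul_add, mul_one, show 2 * k + 2 = orderOf x + 1 by omega, pow_succ,
      pow_orderOf_eq_one, one_mul]
  exact this ▸ pow_mem h2 _

/-- Every element is the product of an element of odd order and a commuting 2-element, both powers
of it. -/
theorem exists_odd_two_parts (x : X) : ∃ a b : X, a ∈ Subgroup.zpowers x ∧ b ∈ Subgroup.zpowers x ∧
    x = a * b ∧ Odd (orderOf a) ∧ ∃ k : ℕ, b ^ 2 ^ k = 1 := by
  obtain ⟨e, m, hm, hem⟩ := Nat.exists_eq_pow_mul_and_not_dvd (orderOf_pos x).ne' 2 (by norm_num)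
  have hco : IsCoprime ((2 ^ e : ℕ) : ℤ) (m : ℤ) :=
    Int.isCoprime_iff_gcd_eq_one.2 (by
      rw [Int.gcd_natCast_natCast]
      exact ((Nat.prime_two.coprime_iff_not_dvd.2 hm).pow_left e))
  obtain ⟨c, d, hcd⟩ := hco
  refine ⟨x ^ (c * (2 ^ e : ℕ)), x ^ (d * m), Subgroup.zpow_mem_zpowers _ _,
    Subgroup.zpow_mem_zpowers _ _, by rw [← zpow_add, hcd, zpow_one], ?_, e, ?_⟩
  · have hodd : Odd m := Nat.odd_iff.2 (Nat.two_dvd_ne_zero.1 hm)
    refine hodd.of_dvd_nat (orderOf_dvd_of_pow_eq_one ?_)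
    rw [← zpow_natCast, ← zpow_mul, mul_assoc, ← Nat.cast_mul, ← hem, mul_comm, zpow_mul,
      zpow_natCast, pow_orderOf_eq_one, one_zpow]
  · rw [← zpow_natCast, ← zpow_mul, mul_assoc, ← Nat.cast_mul, mul_comm m, ← hem, mul_comm, zpow_mul,
      zpow_natCast, pow_orderOf_eq_one, one_zpow]

theorem exists_normalizer_gt {p : ℕ} [Fact p.Prime] {P Q : Subgroup X} (hP : IsPGroup p P) (hQP : Q ≤ P)
    (hne : Q ≠ P) : ∃ y ∈ P, y ∈ Subgroup.normalizer (Q : Set X) ∧ y ∉ Q := by
  haveI := hP.isNilpotent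
  have hlt : Q.subgroupOf P < ⊤ := lt_top_iff_ne_top.2 fun h => hne (le_antisymm hQP
    (Subgroup.subgroupOf_eq_top.1 h))
  obtain ⟨y, hy, hyQ⟩ := SetLike.exists_of_lt (Group.normalizerCondition_of_isNilpotent _ hlt)
  refine ⟨y, y.2, mem_normalizer_of_conj_mem fun t ht => ?_, hyQ⟩
  exact (Subgroup.mem_normalizer_iff.1 hy ⟨t, hQP ht⟩).1 ht

/-- An abelian 2-group with a unique involution is cyclic. -/
theorem isCyclic_of_unique_involution {T : Subgroup X} (hT : IsPGroup 2 T)
    (hcomm : ∀ a ∈ T, ∀ b ∈ T, Commute a b) {v : X} (hu : ∀ a ∈ T, a * a = 1 → a = 1 ∨ a = v) :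
    IsCyclic T := by
  by_contra hnc
  letI : CommGroup T := { (inferInstance : Group T) with mul_comm := fun a b => Subtype.ext (hcomm a a.2 b b.2) }
  obtain ⟨q, e, f, hq, he, hf, hf1, hef⟩ := Coprime.exists_two_of_not_isCyclic hnc
  have hq2 : q = 2 := by
    obtain ⟨k, hk⟩ := hT f
    have h1 := orderOf_eq_prime (hp := ⟨hq⟩) hf hf1
    have h2 := orderOf_dvd_of_pow_eq_one hk
    rw [h1] at h2
    exact (Nat.prime_dvd_prime_iff_eq hq Nat.prime_two).1 (hq.dvd_of_dvd_pow h2)
  subst hq2
  have hsq : ∀ a : T, a ^ 2 = 1 → (a : X) * a = 1 := fun a ha => by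
    rw [← pow_two]; exact congrArg Subtype.val ha
  rcases hu f f.2 (hsq f hf) with h | h
  · exact hf1 (Subtype.ext h)
  rcases hu e e.2 (hsq e he) with h' | h'
  · exact hef (by rw [show e = 1 from Subtype.ext h']; exact one_mem _)
  · exact hef (by rw [show e = f from Subtype.ext (h'.trans h.symm)]; exact Subgroup.mem_zpowers f)

/-- A group with a cyclic Sylow 2-subgroup: its elements of odd order form a normal subgroup of odd
order, complementing the Sylow subgroup. -/
theorem exists_odd_kernel (P : Sylow 2 X) (hP : IsCyclic P) :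
    ∃ M : Subgroup X, M.Normal ∧ Odd (Nat.card M) ∧ (∀ g, g ∈ M ↔ Odd (orderOf g)) ∧
      ∀ g, ∃ m ∈ M, ∃ t ∈ (P : Subgroup X), g = m * t := by
  haveI : Fact (Nat.Prime 2) := ⟨Nat.prime_two⟩
  by_cases h2 : 2 ∣ Nat.card X
  · have hmin : (Nat.card X).minFac = 2 := (Nat.minFac_eq_two_iff _).2 h2
    have hK := IsCyclic.isComplement' hmin hP
    set M := (MonoidHom.transferSylow P (hP.normalizer_le_centralizer hmin)).ker
    have hidx : M.index = Nat.card P := hK.symm.index_eq_card
    obtain ⟨e, he⟩ := IsPGroup.iff_card.1 P.2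
    have hodd : ∀ g : X, Odd (orderOf g) → g ∈ M := fun g hg => by
      rw [← QuotientGroup.eq_one_iff, ← orderOf_eq_one_iff]
      refine Nat.eq_one_of_dvd_coprimes ((Nat.coprime_two_right.2 hg).pow_right e)
        (orderOf_map_dvd (QuotientGroup.mk' M) g) ?_
      rw [← he, ← hidx, Subgroup.index_eq_card]
      exact orderOf_dvd_natCard _
    have hMo : Odd (Nat.card M) := by
      have hc : (Nat.card M).Coprime 2 := by
        rcases e with _ | e
        · exfalso
          have := P.card_eq_multiplicity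
          rw [he] at this
          have h3 := Nat.Prime.factorization_pos_of_dvd Nat.prime_two Nat.card_pos.ne' h2
          have := Nat.pow_right_injective (le_refl 2) this
          omega
        · rw [Nat.coprime_comm, Nat.prime_two.coprime_iff_not_dvd]
          intro h
          have h4 : 2 ^ (e + 1 + 1) ∣ Nat.card X := by
            rw [← hK.card_mul, he, pow_succ']
            exact mul_dvd_mul_right h _
          exact absurd ((Nat.Prime.pow_dvd_iff_le_factorization Nat.prime_two Nat.card_pos.ne').1 h4)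
            (by
              have := P.card_eq_multiplicity
              rw [he] at this
              have := Nat.pow_right_injective (le_refl 2) this
              omega)
      exact Nat.coprime_two_right.1 hc
    refine ⟨M, inferInstance, hMo, fun g => ⟨fun hg => hMo.of_dvd_nat (M.orderOf_dvd_natCard hg), hodd g⟩,
      fun g => ?_⟩
    obtain ⟨⟨m, t⟩, hmt⟩ := hK.2 g
    exact ⟨m, m.2, t, t.2, hmt.symm⟩
  · have hodd : Odd (Nat.card X) := Nat.odd_iff.2 (Nat.two_dvd_ne_zero.1 h2)
    exact ⟨⊤, inferInstance, by simpa using hodd,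
      fun g => ⟨fun _ => hodd.of_dvd_nat (orderOf_dvd_natCard g), fun _ => trivial⟩,
      fun g => ⟨g, trivial, 1, one_mem _, (mul_one g).symm⟩⟩

end CfsgLib.DGroup48
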