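import Mathlib
import Cfsg.Prelude.Def_CaseTheorems
import Cfsg.Agent.DGroup48.Util
import Cfsg.Agent.DGroup48.Fpf
import Cfsg.Agent.DGroup48.Dihedral

/-!
One class of involutions, whose centralisers are D-groups with a cyclic Sylow 2-subgroup in the
abelian part.
-/

set_option autoImplicit false

namespace CfsgLib.DGroup48

/-- The setting: `A v` is the abelian part of `C(v)`. -/
structure Ctx (G : Type*) [Group G] where
  A : G → Subgroup G
  le : ∀ v, orderOf v = 2 → ∀ a ∈ A v, Commute v a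
  mem : ∀ v, orderOf v = 2 → v ∈ A v
  comm : ∀ v, orderOf v = 2 → ∀ a ∈ A v, ∀ b ∈ A v, Commute a b
  out_inv : ∀ v, orderOf v = 2 → ∀ g, Commute v g → g ∉ A v →
    g * g = 1 ∧ ∀ a ∈ A v, g * a * g⁻¹ = a⁻¹
  out_mul : ∀ v, orderOf v = 2 → ∀ g h, Commute v g → g ∉ A v → Commute v h → h ∉ A v → g * h ∈ A v
  ex_out : ∀ v, orderOf v = 2 → ∃ g, Commute v g ∧ g ∉ A v
  unique : ∀ v, orderOf v = 2 → ∀ a ∈ A v, a * a = 1 → a = 1 ∨ a = v
  conj : ∀ a b : G, orderOf a = 2 → orderOf b = 2 → ∃ g, g * a * g⁻¹ = b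
  core : Cfsg.oddCore G = ⊥

variable {G : Type*} [Group G]

/-- The odd elements centralising `v`. -/
def U (v : G) : Subgroup G := Subgroup.closure {g | Commute v g ∧ Odd (orderOf g)}

/-- The odd elements centralising `Y`. -/
def W (Y : Subgroup G) : Subgroup G :=
  Subgroup.closure {g | g ∈ Subgroup.centralizer (Y : Set G) ∧ Odd (orderOf g)}

theorem W_antitone {Y Z : Subgroup G} (h : Y ≤ Z) : W Z ≤ W Y :=
  Subgroup.closure_mono fun _ hg => ⟨Subgroup.centralizer_le h hg.1, hg.2⟩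

theorem W_le_centralizer (Y : Subgroup G) : W Y ≤ Subgroup.centralizer (Y : Set G) :=
  (Subgroup.closure_le _).2 fun _ hg => hg.1

theorem mem_W_of {Y : Subgroup G} {g : G} (h : ∀ y ∈ Y, Commute g y) (ho : Odd (orderOf g)) : g ∈ W Y :=
  Subgroup.subset_closure ⟨Subgroup.mem_centralizer_iff.2 fun y hy => (h y hy).eq.symm, ho⟩

theorem le_W {Y K : Subgroup G} (hK : Odd (Nat.card K)) (h : ∀ k ∈ K, ∀ y ∈ Y, Commute k y) : K ≤ W Y :=
  fun k hk => mem_W_of (h k hk) (hK.of_dvd_nat (K.orderOf_dvd_natCard hk))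

variable [Finite G]

theorem normalizer_le_normalizer_W (Y : Subgroup G) :
    Subgroup.normalizer (Y : Set G) ≤ Subgroup.normalizer (W Y : Set G) := by
  intro g hg
  refine mem_normalizer_of_conj_mem fun w hw => ?_
  induction hw using Subgroup.closure_induction with
  | mem x hx =>
    refine Subgroup.subset_closure ⟨Subgroup.mem_centralizer_iff.2 fun y hy => ?_, odd_orderOf_conj g x hx.2⟩
    have h2 : g⁻¹ * y * g⁻¹⁻¹ ∈ Y := (Subgroup.mem_normalizer_iff.1 (inv_mem hg) y).1 hy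
    have h3 : g⁻¹ * y * g⁻¹⁻¹ * x = x * (g⁻¹ * y * g⁻¹⁻¹) := Subgroup.mem_centralizer_iff.1 hx.1 _ h2
    calc y * (g * x * g⁻¹) = g * ((g⁻¹ * y * g⁻¹⁻¹) * x) * g⁻¹ := by group
      _ = g * (x * (g⁻¹ * y * g⁻¹⁻¹)) * g⁻¹ := by rw [h3]
      _ = g * x * g⁻¹ * y := by group
  | one => simp
  | mul x y _ _ hx hy => rw [show g * (x * y) * g⁻¹ = (g * x * g⁻¹) * (g * y * g⁻¹) by group]; exact mul_mem hx hy
  | inv x _ hx => rw [show g * x⁻¹ * g⁻¹ = (g * x * g⁻¹)⁻¹ by group]; exact inv_mem hx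

theorem conj_mem_U {v : G} (g : G) {x : G} (hx : x ∈ U v) : g * x * g⁻¹ ∈ U (g * v * g⁻¹) := by
  induction hx using Subgroup.closure_induction with
  | mem x hx =>
    refine Subgroup.subset_closure ⟨?_, odd_orderOf_conj g x hx.2⟩
    have := hx.1.map (MulAut.conj g).toMonoidHom
    simpa [MulAut.conj_apply] using this
  | one => simp
  | mul x y _ _ hx hy => rw [show g * (x * y) * g⁻¹ = (g * x * g⁻¹) * (g * y * g⁻¹) by group]; exact mul_mem hx hy
  | inv x _ hx => rw [show g * x⁻¹ * g⁻¹ = (g * x * g⁻¹)⁻¹ by group]; exact inv_mem hx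

namespace Ctx

variable (c : Ctx G) {v u : G}

include c

theorem mem_A_of_odd (hv : orderOf v = 2) {g : G} (hg : Commute v g) (ho : Odd (orderOf g)) :
    g ∈ c.A v := by
  by_contra h
  have hsq := (c.out_inv v hv g hg h).1
  have : g ∈ c.A v := mem_of_sq_mem ho (by rw [hsq]; exact one_mem _)
  exact h this

theorem mem_U (hv : orderOf v = 2) {g : G} : g ∈ U v ↔ Commute v g ∧ Odd (orderOf g) := by
  refine ⟨fun hg => ?_, fun h => Subgroup.subset_closure h⟩
  induction hg using Subgroup.closure_induction with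
  | mem x hx => exact hx
  | one => exact ⟨Commute.one_right v, by simp⟩
  | mul x y _ _ hx hy =>
    refine ⟨hx.1.mul_right hy.1, ?_⟩
    have hc := c.comm v hv x (c.mem_A_of_odd hv hx.1 hx.2) y (c.mem_A_of_odd hv hy.1 hy.2)
    exact (hx.2.mul hy.2).of_dvd_nat hc.orderOf_mul_dvd_mul_orderOf
  | inv x _ hx => exact ⟨hx.1.inv_right, by rw [orderOf_inv]; exact hx.2⟩

theorem odd_U (hv : orderOf v = 2) : Odd (Nat.card (U v)) :=
  odd_card_of_forall fun _ hx => ((c.mem_U hv).1 hx).2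

theorem U_le_A (hv : orderOf v = 2) : U v ≤ c.A v :=
  fun _ hx => c.mem_A_of_odd hv ((c.mem_U hv).1 hx).1 ((c.mem_U hv).1 hx).2

theorem commute_U (hv : orderOf v = 2) {x : G} (hx : x ∈ U v) : Commute v x := ((c.mem_U hv).1 hx).1

theorem comm_U (hv : orderOf v = 2) {x y : G} (hx : x ∈ U v) (hy : y ∈ U v) : Commute x y :=
  c.comm v hv x (c.U_le_A hv hx) y (c.U_le_A hv hy)

/-- The other members of a frame lie outside the abelian part. -/
theorem not_mem_A (F : Frame v u) : u ∉ c.A v := fun h => by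
  rcases c.unique v F.ov u h (mul_self_of_orderOf F.ou) with h1 | h1
  · exact ne_one_of_orderOf F.ou h1
  · exact F.ne h1.symm

theorem inverts (F : Frame v u) {x : G} (hx : x ∈ U v) : u * x * u⁻¹ = x⁻¹ :=
  (c.out_inv v F.ov u F.comm (c.not_mem_A F)).2 x (c.U_le_A F.ov hx)

/-- `C(v)` normalises every subgroup of `U v`. -/
theorem normalizes (hv : orderOf v = 2) {Y : Subgroup G} (hY : Y ≤ U v) {g : G} (hg : Commute v g) :
    g ∈ Subgroup.normalizer (Y : Set G) := by
  refine mem_normalizer_of_conj_mem fun y hy => ?_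
  by_cases hgA : g ∈ c.A v
  · rw [(c.comm v hv g hgA y (c.U_le_A hv (hY hy))).eq, mul_inv_cancel_right]; exact hy
  · rw [(c.out_inv v hv g hg hgA).2 y (c.U_le_A hv (hY hy))]; exact inv_mem hy

/-- The four-group is self-centralising. -/
theorem mem_four (F : Frame v u) {g : G} (hv : Commute v g) (hu : Commute u g) : g ∈ F.four := by
  have huu := mul_self_of_orderOf F.ou
  have key : ∀ a, a ∈ c.A v → Commute u a → a ∈ F.four := fun a ha hua => by
    have h := (c.out_inv v F.ov u F.comm (c.not_mem_A F)).2 a ha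
    rw [hua.eq, mul_inv_cancel_right] at h
    rcases c.unique v F.ov a ha (by nth_rw 2 [h]; exact mul_inv_cancel a) with rfl | rfl
    · exact one_mem _
    · exact F.v_mem
  by_cases hg : g ∈ c.A v
  · exact key g hg hu
  · have h := key (g * u) (c.out_mul v F.ov g u hv hg F.comm (c.not_mem_A F)) (hu.mul_right (Commute.refl u))
    have := mul_mem h F.u_mem
    rwa [mul_assoc, huu, mul_one] at this

/-- A frame acts on a group of odd order without fixed points. -/
theorem fpf (F : Frame v u) {K : Subgroup G} (hK : Odd (Nat.card K)) :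
    ∀ w ∈ K, Commute v w → Commute u w → w = 1 := fun w hw h1 h2 =>
  eq_one_of_mul_self hK hw (by rw [← pow_two]; exact F.sq_four (c.mem_four F h1 h2))

theorem U_inter (F : Frame v u) {x : G} (h1 : x ∈ U v) (h2 : x ∈ U u) : x = 1 :=
  c.fpf F (c.odd_U F.ov) x h1 (c.commute_U F.ov h1) (c.commute_U F.ou h2)

/-- Two-subgroups have their elements of order at least four commuting. -/
theorem twoDihedralLike : TwoDihedralLike G := by
  haveI : Fact (Nat.Prime 2) := ⟨Nat.prime_two⟩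
  intro P hP x hx y hy hx2 hy2
  rcases eq_or_ne P ⊥ with rfl | hne
  · exact absurd (by rw [Subgroup.mem_bot.1 hx, one_mul] : x * x = 1) hx2
  haveI : Nontrivial P := (Subgroup.nontrivial_iff_ne_bot P).2 hne
  haveI := hP.center_nontrivial
  obtain ⟨k, hk⟩ := (hP.to_subgroup (Subgroup.center P)).exists_card_eq
  have h2 : 2 ∣ Nat.card (Subgroup.center P) := by
    rcases k with _ | k
    · exact absurd hk (Finite.one_lt_card.ne')
    · rw [hk]; exact dvd_pow_self 2 k.succ_ne_zero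
  obtain ⟨z, hz⟩ := exists_prime_orderOf_dvd_card' (G := Subgroup.center P) 2 h2
  have hz' : orderOf ((z : P) : G) = 2 := by rw [Subgroup.orderOf_coe, Subgroup.orderOf_coe, hz]
  have hc : ∀ a ∈ P, Commute ((z : P) : G) a := fun a ha =>
    (congrArg Subtype.val (Subgroup.mem_center_iff.1 z.2 ⟨a, ha⟩)).symm
  have hA : ∀ a ∈ P, a * a ≠ 1 → a ∈ c.A ((z : P) : G) := fun a ha h => by
    by_contra h'
    exact h (c.out_inv _ hz' a (hc a ha) h').1
  exact c.comm _ hz' x (hA x hx hx2) y (hA y hy hy2)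

/-- The structure of the centraliser of a subgroup of `U v`. -/
theorem W_spec (hv : orderOf v = 2) {Y : Subgroup G} (hY : Y ≤ U v) (hne : Y ≠ ⊥) :
    Odd (Nat.card (W Y)) ∧
      (∀ g, g ∈ W Y ↔ (g ∈ Subgroup.centralizer (Y : Set G) ∧ Odd (orderOf g))) ∧
      ∀ g ∈ Subgroup.centralizer (Y : Set G), ∃ w ∈ W Y, ∃ t ∈ c.A v, (∃ k : ℕ, t ^ 2 ^ k = 1) ∧
        g = w * t := by
  classical
  haveI : Fact (Nat.Prime 2) := ⟨Nat.prime_two⟩
  set C := Subgroup.centralizer (Y : Set G) with hC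
  have hvC : v ∈ C := Subgroup.mem_centralizer_iff.2 fun y hy => (c.commute_U hv (hY hy)).eq.symm
  have hvv : (⟨v, hvC⟩ : C) ^ 2 = 1 := Subtype.ext (by
    show v ^ 2 = 1
    rw [pow_two, mul_self_of_orderOf hv])
  have hz : IsPGroup 2 (Subgroup.zpowers (⟨v, hvC⟩ : C)) := by
    rintro ⟨_, k, rfl⟩
    refine ⟨1, Subtype.ext ?_⟩
    show ((⟨v, hvC⟩ : C) ^ k) ^ (2 ^ 1) = 1
    rw [← zpow_natCast, ← zpow_mul, mul_comm, zpow_mul, zpow_natCast, pow_one, hvv, one_zpow]
  obtain ⟨P, hP⟩ := hz.exists_le_sylow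
  set T := (P : Subgroup C).map C.subtype with hT
  have hTp : IsPGroup 2 T := P.2.map _
  have hvT : v ∈ T := ⟨⟨v, hvC⟩, hP (Subgroup.mem_zpowers _), rfl⟩
  have hQ : ∀ g ∈ T, Commute v g → g ∈ c.A v := fun g hg hc => by
    by_contra hgA
    obtain ⟨y, hy, hy1⟩ : ∃ y ∈ Y, y ≠ 1 := by
      by_contra h
      push Not at h
      exact hne ((Subgroup.eq_bot_iff_forall _).2 h)
    have hgC : g ∈ C := Subgroup.map_subtype_le _ hg
    have h1 := (c.out_inv v hv g hc hgA).2 y (c.U_le_A hv (hY hy))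
    rw [← Subgroup.mem_centralizer_iff.1 hgC y hy, mul_inv_cancel_right] at h1
    exact hy1 (eq_one_of_mul_self (c.odd_U hv) (hY hy) (by nth_rw 2 [h1]; exact mul_inv_cancel y))
  have hTA : T ≤ c.A v := by
    intro g hg
    refine hQ g hg ?_
    by_contra hg'
    have hne' : T ⊓ Subgroup.centralizer {v} ≠ T := fun e => by
      have : g ∈ T ⊓ Subgroup.centralizer {v} := e.symm ▸ hg
      exact hg' (Subgroup.mem_centralizer_singleton_iff.1 this.2).symm
    obtain ⟨n, hnT, hn, hnQ⟩ := exists_normalizer_gt hTp inf_le_left hne'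
    have hvQ : v ∈ T ⊓ Subgroup.centralizer {v} :=
      ⟨hvT, Subgroup.mem_centralizer_singleton_iff.2 rfl⟩
    have h1 := (Subgroup.mem_normalizer_iff.1 hn v).1 hvQ
    have h2 : n * v * n⁻¹ ∈ c.A v := hQ _ h1.1 (Subgroup.mem_centralizer_singleton_iff.1 h1.2).symm
    rcases c.unique v hv _ h2 (by
      rw [show n * v * n⁻¹ * (n * v * n⁻¹) = n * (v * v) * n⁻¹ by group, mul_self_of_orderOf hv]; group)
      with h3 | h3
    · exact ne_one_of_orderOf hv (conj_eq_one_iff.1 h3)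
    · exact hnQ ⟨hnT, Subgroup.mem_centralizer_singleton_iff.2 (mul_inv_eq_iff_eq_mul.1 h3)⟩
  have hcyc : IsCyclic P := by
    have := isCyclic_of_unique_involution hTp (fun a ha b hb => c.comm v hv a (hTA ha) b (hTA hb))
      (fun a ha => c.unique v hv a (hTA ha))
    exact ((P : Subgroup C).equivMapOfInjective C.subtype C.subtype_injective).isCyclic.2 this
  obtain ⟨M, -, hMo, hM, hdec⟩ := exists_odd_kernel P hcyc
  have hW : W Y = M.map C.subtype := by
    refine le_antisymm ((Subgroup.closure_le _).2 fun g hg => ?_) ?_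
    · exact ⟨⟨g, hg.1⟩, (hM _).2 (by rw [← Subgroup.orderOf_coe]; exact hg.2), rfl⟩
    · rintro _ ⟨m, hm, rfl⟩
      exact Subgroup.subset_closure ⟨m.2, by
        show Odd (orderOf (m : G))
        rw [Subgroup.orderOf_coe]; exact (hM m).1 hm⟩
  refine ⟨?_, fun g => ⟨fun hg => ?_, fun hg => Subgroup.subset_closure hg⟩, fun g hg => ?_⟩
  · rw [hW, Subgroup.card_subtype]; exact hMo
  · rw [hW] at hg
    obtain ⟨m, hm, rfl⟩ := hg
    exact ⟨m.2, by show Odd (orderOf (m : G)); rw [Subgroup.orderOf_coe]; exact (hM m).1 hm⟩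
  · obtain ⟨m, hm, t, ht, e⟩ := hdec ⟨g, hg⟩
    obtain ⟨k, hk⟩ := P.2 ⟨t, ht⟩
    refine ⟨m, hW ▸ ⟨m, hm, rfl⟩, t, hTA ⟨t, ht, rfl⟩, ⟨k, ?_⟩, congrArg Subtype.val e⟩
    exact congrArg (fun x : P => ((x : C) : G)) hk

theorem odd_W (hv : orderOf v = 2) {Y : Subgroup G} (hY : Y ≤ U v) (hne : Y ≠ ⊥) :
    Odd (Nat.card (W Y)) := (c.W_spec hv hY hne).1

omit [Finite G] in
theorem four_le_normalizer (F : Frame v u) {Y : Subgroup G}
    (h : ∀ g, Commute v g → g ∈ Subgroup.normalizer (Y : Set G)) :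
    F.four ≤ Subgroup.normalizer (Y : Set G) :=
  F.four_le (h v (Commute.refl v)) (h u F.comm)

theorem four_le_normalizer_W (F : Frame v u) {Y : Subgroup G} (hY : Y ≤ U v) :
    F.four ≤ Subgroup.normalizer (W Y : Set G) :=
  (c.four_le_normalizer F fun _ hg => c.normalizes F.ov hY hg).trans (normalizer_le_normalizer_W Y)

/-- `C(v)` contains a frame. -/
theorem exists_frame (hv : orderOf v = 2) : ∃ u, Frame v u := by
  obtain ⟨g, hg, hgA⟩ := c.ex_out v hv
  refine ⟨g, hv, orderOf_two_of_mul_self (c.out_inv v hv g hg hgA).1 (fun h => hgA (h ▸ one_mem _)), ?_, hg⟩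
  rintro rfl
  exact hgA (c.mem v hv)

end Ctx

end CfsgLib.DGroup48
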