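import Mathlib
import Cfsg.Agent.DGroup48.Ctx

/-!
An involution whose centraliser is a D-group with a unique involution in the abelian part.
-/

set_option autoImplicit false

namespace CfsgLib.DGroup48

variable {G : Type*} [Group G]

/-- `C(t)` is a D-group with abelian part `A`, in which `t` is the only involution. -/
structure DCent (t : G) (A : Subgroup G) : Prop where
  ord : orderOf t = 2
  le : ∀ a ∈ A, Commute t a
  mem : t ∈ A
  comm : ∀ a ∈ A, ∀ b ∈ A, Commute a b
  out_inv : ∀ g, Commute t g → g ∉ A → g * g = 1 ∧ ∀ a ∈ A, g * a * g⁻¹ = a⁻¹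
  out_mul : ∀ g h, Commute t g → g ∉ A → Commute t h → h ∉ A → g * h ∈ A
  ex_out : ∃ g, Commute t g ∧ g ∉ A
  unique : ∀ a ∈ A, a * a = 1 → a = 1 ∨ a = t

namespace DCent

variable {t : G} {A : Subgroup G}

theorem conj (hd : DCent t A) (g : G) : DCent (g * t * g⁻¹) (A.map (MulAut.conj g).toMonoidHom) := by
  have hb : ∀ y, Commute (g * t * g⁻¹) y → Commute t (g⁻¹ * y * g) := fun y hy => by
    show t * (g⁻¹ * y * g) = g⁻¹ * y * g * t
    calc t * (g⁻¹ * y * g) = g⁻¹ * ((g * t * g⁻¹) * y) * g := by group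
      _ = g⁻¹ * (y * (g * t * g⁻¹)) * g := by rw [hy.eq]
      _ = g⁻¹ * y * g * t := by group
  have hm : ∀ y, y ∈ A.map (MulAut.conj g).toMonoidHom ↔ g⁻¹ * y * g ∈ A := fun y => by
    constructor
    · rintro ⟨a, ha, rfl⟩
      simpa [MulAut.conj_apply, mul_assoc] using ha
    · exact fun h => ⟨_, h, by simp [MulAut.conj_apply, mul_assoc]⟩
  refine ⟨((MulAut.conj g).orderOf_eq t).trans hd.ord, ?_, ⟨t, hd.mem, rfl⟩, ?_, fun y hy hyA => ?_,
    fun y z hy hyA hz hzA => ?_, ?_, fun a ha h => ?_⟩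
  · rintro _ ⟨a, ha, rfl⟩
    exact (hd.le a ha).map (MulAut.conj g).toMonoidHom
  · rintro _ ⟨a, ha, rfl⟩ _ ⟨b, hb', rfl⟩
    exact (hd.comm a ha b hb').map (MulAut.conj g).toMonoidHom
  · obtain ⟨h1, h2⟩ := hd.out_inv _ (hb y hy) (fun h => hyA ((hm y).2 h))
    refine ⟨?_, fun a ha => ?_⟩
    · have : y = g * (g⁻¹ * y * g) * g⁻¹ := by group
      rw [this, show g * (g⁻¹ * y * g) * g⁻¹ * (g * (g⁻¹ * y * g) * g⁻¹) =
        g * ((g⁻¹ * y * g) * (g⁻¹ * y * g)) * g⁻¹ by group, h1]
      group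
    · have h3 := h2 _ ((hm a).1 ha)
      calc y * a * y⁻¹ = g * ((g⁻¹ * y * g) * (g⁻¹ * a * g) * (g⁻¹ * y * g)⁻¹) * g⁻¹ := by group
        _ = g * (g⁻¹ * a * g)⁻¹ * g⁻¹ := by rw [h3]
        _ = a⁻¹ := by group
  · refine (hm _).2 ?_
    rw [show g⁻¹ * (y * z) * g = (g⁻¹ * y * g) * (g⁻¹ * z * g) by group]
    exact hd.out_mul _ _ (hb y hy) (fun h => hyA ((hm y).2 h)) (hb z hz) (fun h => hzA ((hm z).2 h))
  · obtain ⟨y, hy, hyA⟩ := hd.ex_out
    refine ⟨g * y * g⁻¹, hy.map (MulAut.conj g).toMonoidHom, fun h => hyA ?_⟩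
    simpa [mul_assoc] using (hm _).1 h
  · rcases hd.unique _ ((hm a).1 ha) (by
      rw [show g⁻¹ * a * g * (g⁻¹ * a * g) = g⁻¹ * (a * a) * g by group, h]; group) with e | e
    · exact Or.inl (by simpa [mul_assoc] using congrArg (fun y => g * y * g⁻¹) e)
    · exact Or.inr (by simpa [mul_assoc] using congrArg (fun y => g * y * g⁻¹) e)

variable [Finite G]

/-- Passing to the quotient by a normal subgroup of odd order. -/
theorem map (hd : DCent t A) (N : Subgroup G) [N.Normal] (hN : Odd (Nat.card N)) :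
    DCent (QuotientGroup.mk' N t) (A.map (QuotientGroup.mk' N)) := by
  set π := QuotientGroup.mk' N with hπ
  have htt : t * t = 1 := mul_self_of_orderOf hd.ord
  -- every element commuting with the image comes from the centraliser
  have hlift : ∀ y, Commute (π t) y → ∃ g, π g = y ∧ Commute t g := by
    intro y hy
    obtain ⟨g, rfl⟩ := QuotientGroup.mk'_surjective N y
    have hmem : g⁻¹ * t * g * t ∈ N := by
      rw [← QuotientGroup.eq_one_iff]
      show π (g⁻¹ * t * g * t) = 1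
      rw [map_mul, map_mul, map_mul, map_inv, mul_assoc (π g)⁻¹, hy.eq, inv_mul_cancel_left, ← map_mul, htt, map_one]
    set n := g⁻¹ * t * g * t with hn
    obtain ⟨k, hk⟩ := odd_orderOf_of_mem hN hmem
    have hinv : t * n * t⁻¹ = n⁻¹ := by
      rw [hn, mul_inv_rev, mul_inv_rev, mul_inv_rev, inv_inv, inv_eq_of_mul_eq_one_right htt]
      simp [mul_assoc, htt]
    -- `m` is the square root of `n`
    set m := n ^ (k + 1) with hm
    have hm2 : m * m = n := by
      rw [hm, ← pow_add, show k + 1 + (k + 1) = orderOf n + 1 by omega, pow_succ, pow_orderOf_eq_one, one_mul]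
    have hinvm : t * m * t⁻¹ = m⁻¹ := by rw [hm, ← conj_pow, hinv, inv_pow]
    refine ⟨g * m, by rw [map_mul, show π m = 1 from (QuotientGroup.eq_one_iff _).2 (pow_mem hmem _), mul_one], ?_⟩
    show t * (g * m) = g * m * t
    have h1 : t * g = g * (n * t) := by
      rw [hn, mul_assoc (g⁻¹ * t * g), htt, mul_one]; group
    have h2 : t * m = m⁻¹ * t := by rw [← hinvm]; group
    calc t * (g * m) = g * (n * t) * m := by rw [← mul_assoc, h1]
      _ = g * n * (t * m) := by group
      _ = g * (m * m) * (m⁻¹ * t) := by rw [h2, hm2]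
      _ = g * m * t := by group
  have hker : ∀ g, π g = 1 → Odd (orderOf g) := fun g hg =>
    odd_orderOf_of_mem hN ((QuotientGroup.eq_one_iff g).1 hg)
  have hπt : π t ≠ 1 := fun h => by
    have := hker t h
    rw [hd.ord] at this
    exact absurd this (by decide)
  refine ⟨orderOf_two_of_mul_self (by rw [← map_mul, htt, map_one]) hπt, ?_, ⟨t, hd.mem, rfl⟩, ?_,
    fun y hy hyA => ?_, fun y z hy hyA hz hzA => ?_, ?_, ?_⟩
  · rintro _ ⟨a, ha, rfl⟩
    exact (hd.le a ha).map π
  · rintro _ ⟨a, ha, rfl⟩ _ ⟨b, hb, rfl⟩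
    exact (hd.comm a ha b hb).map π
  · obtain ⟨g, rfl, hg⟩ := hlift y hy
    obtain ⟨h1, h2⟩ := hd.out_inv g hg (fun h => hyA ⟨g, h, rfl⟩)
    refine ⟨by rw [← map_mul, h1, map_one], ?_⟩
    rintro _ ⟨a, ha, rfl⟩
    rw [← map_inv, ← map_mul, ← map_mul, h2 a ha, map_inv]
  · obtain ⟨g, rfl, hg⟩ := hlift y hy
    obtain ⟨k, rfl, hk⟩ := hlift z hz
    exact ⟨_, hd.out_mul g k hg (fun h => hyA ⟨g, h, rfl⟩) hk (fun h => hzA ⟨k, h, rfl⟩), map_mul π g k⟩
  · obtain ⟨g, hg, hgA⟩ := hd.ex_out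
    refine ⟨π g, hg.map π, ?_⟩
    rintro ⟨a, ha, e⟩
    have h1 : π (g * a⁻¹) = 1 := by rw [map_mul, map_inv, e, mul_inv_cancel]
    have hga : g * a⁻¹ ∉ A := fun h => hgA (by simpa using mul_mem h ha)
    have h2 := (hd.out_inv _ (hg.mul_right (hd.le _ (inv_mem ha))) hga).1
    exact hga ((eq_one_of_mul_self hN ((QuotientGroup.eq_one_iff _).1 h1) h2).symm ▸ one_mem _)
  · rintro _ ⟨a, ha, rfl⟩ h
    obtain ⟨b, s, hb, hs, hbs, hbo, k, hk⟩ := exists_odd_two_parts a
    have hbA : b ∈ A := Subgroup.zpowers_le.2 ha hb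
    have hsA : s ∈ A := Subgroup.zpowers_le.2 ha hs
    have hab : a * a = (b * b) * (s * s) := by
      have := hd.comm b hbA s hsA
      rw [hbs, mul_assoc, ← mul_assoc s, this.symm.eq, mul_assoc, mul_assoc]
    have h1 : b * b * (s * s) ∈ N := by
      rw [← hab, ← QuotientGroup.eq_one_iff]; rw [← map_mul] at h; exact h
    -- the 2-part squared is trivial
    have hodd := odd_orderOf_of_mem hN h1
    have hcomm : Commute (b * b) (s * s) := by
      have := hd.comm b hbA s hsA
      exact ((this.mul_right this).mul_left (this.mul_right this))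
    have hss : (s * s) ^ (orderOf b * orderOf (b * b * (s * s))) = 1 := by
      have e1 : (b * b) ^ orderOf b = 1 := by rw [← pow_two, ← pow_mul, mul_comm, pow_mul, pow_orderOf_eq_one, one_pow]
      have e2 : (b * b * (s * s)) ^ (orderOf b * orderOf (b * b * (s * s))) = 1 := by
        rw [mul_comm, pow_mul, pow_orderOf_eq_one, one_pow]
      rw [hcomm.mul_pow, pow_mul (b * b), e1, one_pow, one_mul] at e2
      exact e2
    have hs2 : (s * s) ^ 2 ^ k = 1 := by rw [← pow_two, ← pow_mul, mul_comm, pow_mul, hk, one_pow]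
    have hs1 : s * s = 1 := orderOf_eq_one_iff.1 (Nat.eq_one_of_dvd_coprimes
      ((Nat.coprime_two_left.2 (hbo.mul hodd)).pow_left k)
      (orderOf_dvd_of_pow_eq_one hs2) (orderOf_dvd_of_pow_eq_one hss))
    have hbN : b ∈ N := mem_of_sq_mem hbo (by rwa [hs1, mul_one] at h1)
    have hπb : π b = 1 := (QuotientGroup.eq_one_iff b).2 hbN
    rcases hd.unique s hsA hs1 with e | e
    · exact Or.inl (by rw [hbs, map_mul, hπb, one_mul, e, map_one])
    · exact Or.inr (by rw [hbs, map_mul, hπb, one_mul, e])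

/-- One class of involutions and trivial core: the setting. -/
noncomputable def toCtx (hd : DCent t A) (hconj : ∀ a b : G, orderOf a = 2 → orderOf b = 2 → ∃ g, g * a * g⁻¹ = b)
    (hcore : Cfsg.oddCore G = ⊥) : Ctx G := by
  classical
  let f : G → Subgroup G := fun v =>
    if hv : orderOf v = 2 then A.map (MulAut.conj (hconj t v hd.ord hv).choose).toMonoidHom else ⊥
  have hf : ∀ v, orderOf v = 2 → DCent v (f v) := fun v hv => by
    have h := hd.conj (hconj t v hd.ord hv).choose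
    rw [(hconj t v hd.ord hv).choose_spec] at h
    simpa only [f, dif_pos hv] using h
  exact ⟨f, fun v hv => (hf v hv).le, fun v hv => (hf v hv).mem, fun v hv => (hf v hv).comm,
    fun v hv => (hf v hv).out_inv, fun v hv => (hf v hv).out_mul, fun v hv => (hf v hv).ex_out,
    fun v hv => (hf v hv).unique, hconj, hcore⟩

end DCent

end CfsgLib.DGroup48
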