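import Mathlib

/-!
Setting and conclusion of the theorem on groups with a D-group involution centraliser.
-/

set_option autoImplicit false

namespace CfsgLib.DGroup48

variable (G : Type*) [Group G]

/-- The group is, modulo a normal subgroup of order odd or twice odd, PSL(2, q) or PGL(2, q). -/
def Conclusion : Prop :=
  ∃ (N : Subgroup G) (_ : N.Normal), (Odd (Nat.card ↥N) ∨ ∃ m : ℕ, Odd m ∧ Nat.card ↥N = 2 * m) ∧
    ∃ (F : Type) (_ : Field F) (_ : Fintype F), 3 < Fintype.card F ∧
      (Nonempty (G ⧸ N ≃* Matrix.ProjectiveSpecialLinearGroup (Fin 2) F) ∨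
        Nonempty (G ⧸ N ≃* Matrix.ProjGenLinGroup (Fin 2) F))

variable {G}

/-- `H` is a D-group of order divisible by four, and is the centraliser of each of its central involutions. -/
structure Hyp (H A : Subgroup G) : Prop where
  lt : A < H
  sq : ∀ x ∈ H, x ∉ A → x ^ 2 = 1
  four_dvd : 4 ∣ Nat.card ↥H
  centralizer : ∀ j ∈ H, orderOf j = 2 → (∀ h ∈ H, h * j = j * h) → Subgroup.centralizer ({j} : Set G) = H

end CfsgLib.DGroup48
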