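import Mathlib
import Cfsg.Agent.DGroup48.Ctx

/-!
Four-groups and their normalisers in a group with one class of D-group involution centralisers.
-/

set_option autoImplicit false

namespace CfsgLib.DGroup48

open scoped Pointwise

variable {G : Type*} [Group G] {v u : G}

namespace Frame

theorem swap (F : Frame v u) : Frame (v * u) u := by
  have h := F.symm.third
  rw [← F.comm.eq] at h
  exact h.symm

theorem mul_mul_left (F : Frame v u) : v * (v * u) = u := by
  rw [← mul_assoc, mul_self_of_orderOf F.ov, one_mul]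

theorem four_third (F : Frame v u) : F.third.four = F.four :=
  le_antisymm (F.third.four_le F.v_mem (mul_mem F.v_mem F.u_mem))
    (F.four_le F.third.v_mem (by have := mul_mem F.third.v_mem F.third.u_mem; rwa [F.mul_mul_left] at this))

theorem four_symm (F : Frame v u) : F.symm.four = F.four :=
  le_antisymm (F.symm.four_le F.u_mem F.v_mem) (F.four_le F.symm.u_mem F.symm.v_mem)

theorem four_swap (F : Frame v u) : F.swap.four = F.four :=
  le_antisymm (F.swap.four_le (mul_mem F.v_mem F.u_mem) F.u_mem)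
    (F.four_le (by
      have := mul_mem F.swap.v_mem F.swap.u_mem
      rwa [mul_assoc, mul_self_of_orderOf F.ou, mul_one] at this) F.swap.u_mem)

theorem conj_mem (F : Frame v u) {n : G} (hn : n ∈ Subgroup.normalizer (F.four : Set G)) {a : G}
    (ha : a ∈ F.four) (ha1 : a ≠ 1) : n * a * n⁻¹ = v ∨ n * a * n⁻¹ = u ∨ n * a * n⁻¹ = v * u := by
  rcases F.mem_four.1 ((Subgroup.mem_normalizer_iff.1 hn a).1 ha) with h | h | h | h
  · exact absurd (conj_eq_one_iff.1 h) ha1
  all_goals simp [h]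

theorem conj_third (F : Frame v u) (n : G) : n * (v * u) * n⁻¹ = (n * v * n⁻¹) * (n * u * n⁻¹) := by
  group

end Frame

theorem full_normalizer_aux (F : Frame v u) {L : Subgroup G}
    (hstab : ∀ g ∈ Subgroup.normalizer (F.four : Set G), Commute v g → g ∈ L) {w : G}
    (hwn : w ∈ Subgroup.normalizer (F.four : Set G)) (hwL : w ∈ L) (hw : w * v * w⁻¹ = u) :
    ∀ g ∈ Subgroup.normalizer (F.four : Set G), g ∈ L := by
  have hv1 := ne_one_of_orderOf F.ov
  have hu1 := ne_one_of_orderOf F.ou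
  have hstab' : ∀ g ∈ Subgroup.normalizer (F.four : Set G), g * v * g⁻¹ = v → g ∈ L := fun g hg e =>
    hstab g hg (mul_inv_eq_iff_eq_mul.1 e).symm
  have key : ∀ g ∈ Subgroup.normalizer (F.four : Set G), ∀ l ∈ L, l ∈ Subgroup.normalizer (F.four : Set G) →
      l * v * l⁻¹ = g * v * g⁻¹ → g ∈ L := by
    intro g hg l hlL hln e
    have h1 : l⁻¹ * g ∈ L := hstab' _ (mul_mem (inv_mem hln) hg) (by
      rw [show l⁻¹ * g * v * (l⁻¹ * g)⁻¹ = l⁻¹ * (g * v * g⁻¹) * l by group, ← e]; group)
    have := mul_mem hlL h1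
    rwa [mul_inv_cancel_left] at this
  intro g hg
  rcases F.conj_mem hg F.v_mem hv1 with h | h | h
  · exact hstab' g hg h
  · exact key g hg w hwL hwn (hw.trans h.symm)
  rcases F.conj_mem hwn F.u_mem hu1 with h' | h' | h'
  · -- `w` swaps `v` and `u`
    have hfix : w * (v * u) * w⁻¹ = v * u := by rw [F.conj_third, hw, h', F.comm.eq]
    set m := g⁻¹ * w * g with hm
    have hmn : m ∈ Subgroup.normalizer (F.four : Set G) := mul_mem (mul_mem (inv_mem hg) hwn) hg
    have hmv : m * v * m⁻¹ = v := by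
      rw [show m * v * m⁻¹ = g⁻¹ * (w * (g * v * g⁻¹) * w⁻¹) * g by rw [hm]; group, h, hfix, ← h]
      group
    rcases F.conj_mem hmn F.u_mem hu1 with q | q | q
    · exact absurd (mul_left_cancel (mul_right_cancel (q.trans hmv.symm))) F.ne.symm
    · exfalso
      have h5 : w * (g * u * g⁻¹) * w⁻¹ = g * u * g⁻¹ := by
        calc w * (g * u * g⁻¹) * w⁻¹ = g * (m * u * m⁻¹) * g⁻¹ := by rw [hm]; group
          _ = g * u * g⁻¹ := by rw [q]
      rcases F.conj_mem hg F.u_mem hu1 with r | r | r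
      · rw [r, hw] at h5; exact F.ne h5.symm
      · rw [r, h'] at h5; exact F.ne h5
      · exact F.ne (mul_left_cancel (mul_right_cancel (r.trans h.symm))).symm
    · exact key g hg (m * w) (mul_mem (hstab' m hmn hmv) hwL) (mul_mem hmn hwn) (by
        rw [show m * w * v * (m * w)⁻¹ = m * (w * v * w⁻¹) * m⁻¹ by group, hw, q, h])
  · exact absurd (mul_left_cancel (mul_right_cancel (h'.trans hw.symm))) F.ne.symm
  · exact key g hg (w * w) (mul_mem hwL hwL) (mul_mem hwn hwn) (by
      rw [show w * w * v * (w * w)⁻¹ = w * (w * v * w⁻¹) * w⁻¹ by group, hw, h', h])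

/-- From the stabiliser of the first member and one element moving it, the whole normaliser. -/
theorem full_normalizer (F : Frame v u) {L : Subgroup G}
    (hstab : ∀ g ∈ Subgroup.normalizer (F.four : Set G), Commute v g → g ∈ L) {w : G}
    (hwn : w ∈ Subgroup.normalizer (F.four : Set G)) (hwL : w ∈ L) (hw : w * v * w⁻¹ ≠ v) :
    ∀ g ∈ Subgroup.normalizer (F.four : Set G), g ∈ L := by
  rcases F.conj_mem hwn F.v_mem (ne_one_of_orderOf F.ov) with e | e | e
  · exact absurd e hw
  · exact full_normalizer_aux F hstab hwn hwL e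
  · rw [← F.four_third] at hstab hwn ⊢
    exact full_normalizer_aux F.third hstab hwn hwL e

variable [Finite G]

/-- A Sylow 2-subgroup centralising `v` and containing a given frame at `v`. -/
theorem Ctx.exists_central_sylow (c : Ctx G) (F : Frame v u) :
    ∃ S : Sylow 2 G, (∀ s ∈ (S : Subgroup G), Commute v s) ∧ F.four ≤ S := by
  haveI : Fact (Nat.Prime 2) := ⟨Nat.prime_two⟩
  obtain ⟨S0, hS0⟩ := F.isPGroup_four.exists_le_sylow
  haveI : Nontrivial (S0 : Subgroup G) := (Subgroup.nontrivial_iff_ne_bot _).2 fun h =>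
    ne_one_of_orderOf F.ov (Subgroup.mem_bot.1 (h ▸ hS0 F.v_mem))
  haveI := S0.2.center_nontrivial
  obtain ⟨k, hk⟩ := (S0.2.to_subgroup (Subgroup.center (S0 : Subgroup G))).exists_card_eq
  have h2 : 2 ∣ Nat.card (Subgroup.center (S0 : Subgroup G)) := by
    rcases k with _ | k
    · exact absurd hk (Finite.one_lt_card.ne')
    · rw [hk]; exact dvd_pow_self 2 k.succ_ne_zero
  obtain ⟨z, hz⟩ := exists_prime_orderOf_dvd_card' (G := Subgroup.center (S0 : Subgroup G)) 2 h2
  have hz' : orderOf ((z : (S0 : Subgroup G)) : G) = 2 := by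
    rw [Subgroup.orderOf_coe, Subgroup.orderOf_coe, hz]
  obtain ⟨g, hg⟩ := c.conj _ _ hz' F.ov
  set C := Subgroup.centralizer ({v} : Set G) with hC
  have hS1 : (g • S0 : Sylow 2 G) ≤ C := by
    intro a ha
    rw [Sylow.coe_subgroup_smul, Subgroup.mem_pointwise_smul_iff_inv_smul_mem] at ha
    have hcm := congrArg Subtype.val (Subgroup.mem_center_iff.1 z.2 ⟨_, ha⟩)
    simp only [MulAut.smul_def, MulAut.conj_inv_apply] at hcm ha ⊢
    refine Subgroup.mem_centralizer_singleton_iff.2 ?_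
    have e : (g⁻¹ * a * g) * ((z : (S0 : Subgroup G)) : G) = ((z : (S0 : Subgroup G)) : G) * (g⁻¹ * a * g) := hcm
    calc a * v = g * ((g⁻¹ * a * g) * ((z : (S0 : Subgroup G)) : G)) * g⁻¹ := by rw [← hg]; group
      _ = g * (((z : (S0 : Subgroup G)) : G) * (g⁻¹ * a * g)) * g⁻¹ := by rw [e]
      _ = v * a := by rw [← hg]; group
  have hVC : F.four ≤ C := F.four_le (Subgroup.mem_centralizer_singleton_iff.2 rfl)
    (Subgroup.mem_centralizer_singleton_iff.2 F.comm.eq.symm)
  obtain ⟨T, hT⟩ := (F.isPGroup_four.comap_of_injective C.subtype C.subtype_injective).exists_le_sylow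
  obtain ⟨d, hd⟩ := MulAction.exists_smul_eq C ((g • S0).subtype hS1) T
  refine ⟨(d : G) • (g • S0), fun s hs => ?_, fun a ha => ?_⟩
  · rw [Sylow.coe_subgroup_smul, Subgroup.mem_pointwise_smul_iff_inv_smul_mem] at hs
    have h1 := hS1 hs
    simp only [MulAut.smul_def, MulAut.conj_inv_apply] at h1
    have h3 : s ∈ C := by
      have := C.mul_mem (C.mul_mem d.2 h1) (C.inv_mem d.2)
      rwa [show (d : G) * ((d : G)⁻¹ * s * (d : G)) * (d : G)⁻¹ = s by group] at this
    exact (Subgroup.mem_centralizer_singleton_iff.1 h3).symm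
  · have h1 : (⟨a, hVC ha⟩ : C) ∈ (T : Subgroup C) := hT ha
    rw [← hd, Sylow.coe_subgroup_smul, Subgroup.mem_pointwise_smul_iff_inv_smul_mem] at h1
    rw [Sylow.coe_subgroup_smul, Subgroup.mem_pointwise_smul_iff_inv_smul_mem]
    exact h1

/-- For every frame some element normalising it takes the second member to the first. -/
theorem Ctx.exists_mover (c : Ctx G) (F : Frame v u) :
    ∃ n ∈ Subgroup.normalizer (F.four : Set G), n * u * n⁻¹ = v := by
  haveI : Fact (Nat.Prime 2) := ⟨Nat.prime_two⟩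
  obtain ⟨T, hTw, hT⟩ := c.exists_central_sylow F.swap
  rw [F.four_swap] at hT
  by_cases he : F.four = T
  · haveI : IsMulCommutative (T : Subgroup G) := he ▸ F.four_comm
    obtain ⟨g, hg⟩ := c.conj u v F.ou F.ov
    obtain ⟨n, hn, e⟩ := T.conj_eq_normalizer_conj_of_mem u g⁻¹ (hT F.u_mem)
      (by rw [inv_inv, hg]; exact hT F.v_mem)
    rw [inv_inv, hg] at e
    refine ⟨n⁻¹, ?_, by rw [inv_inv]; exact e.symm⟩
    rw [he]; exact inv_mem hn
  · obtain ⟨n, hnT, hn, hn4⟩ := exists_normalizer_gt T.2 hT he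
    refine ⟨n, hn, ?_⟩
    have hcw := hTw n hnT
    rcases F.conj_mem hn F.u_mem (ne_one_of_orderOf F.ou) with e | e | e
    · exact e
    · exfalso
      refine hn4 ?_
      have := c.mem_four F.swap (g := n) hcw (mul_inv_eq_iff_eq_mul.1 e).symm
      rwa [F.four_swap] at this
    · exfalso
      have h1 : n * (v * u) * n⁻¹ = v * u := by rw [← hcw.eq, mul_inv_cancel_right]
      have h2 : n * u * n⁻¹ = n * (v * u) * n⁻¹ := by rw [e, h1]
      exact ne_one_of_orderOf F.ov (mul_eq_right.1 (mul_left_cancel (mul_right_cancel h2)).symm)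

namespace Ctx

variable (c : Ctx G) {S : Sylow 2 G} {z : G}

include c

theorem two_mem (hz : orderOf z = 2) (hSz : ∀ s ∈ (S : Subgroup G), Commute z s) {t : G}
    (ht : t ∈ c.A z) {k : ℕ} (hk : t ^ 2 ^ k = 1) : t ∈ (S : Subgroup G) := by
  haveI : Fact (Nat.Prime 2) := ⟨Nat.prime_two⟩
  have hzp : IsPGroup 2 (Subgroup.zpowers t) := by
    rintro ⟨_, i, rfl⟩
    refine ⟨k, Subtype.ext ?_⟩
    show (t ^ i) ^ (2 ^ k) = 1
    rw [← zpow_natCast, ← zpow_mul, mul_comm, zpow_mul, zpow_natCast, hk, one_zpow]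
  have hnorm : (S : Subgroup G) ≤ Subgroup.normalizer (Subgroup.zpowers t : Set G) := fun s hs => by
    refine mem_normalizer_of_conj_mem fun x hx => ?_
    obtain ⟨i, rfl⟩ := hx
    show s * t ^ i * s⁻¹ ∈ _
    rw [← conj_zpow]
    refine zpow_mem ?_ i
    by_cases hsA : s ∈ c.A z
    · rw [(c.comm z hz s hsA t ht).eq, mul_inv_cancel_right]; exact Subgroup.mem_zpowers t
    · rw [(c.out_inv z hz s (hSz s hs) hsA).2 t ht]; exact inv_mem (Subgroup.mem_zpowers t)
  have h := S.3 (S.2.to_sup_of_normal_right' hzp hnorm) le_sup_left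
  exact h ▸ Subgroup.mem_sup_right (Subgroup.mem_zpowers t)

theorem A_le (hz : orderOf z = 2) (hSz : ∀ s ∈ (S : Subgroup G), Commute z s) :
    c.A z ≤ U z ⊔ (S : Subgroup G) := by
  intro g hg
  obtain ⟨a, b, ha, hb, rfl, hao, k, hk⟩ := exists_odd_two_parts g
  refine mul_mem (Subgroup.mem_sup_left ((c.mem_U hz).2 ⟨?_, hao⟩)) (Subgroup.mem_sup_right
    (c.two_mem hz hSz ?_ hk))
  · exact c.le z hz _ (Subgroup.zpowers_le.2 hg ha)
  · exact Subgroup.zpowers_le.2 hg hb

theorem centralizer_le (F : Frame z u) (hSz : ∀ s ∈ (S : Subgroup G), Commute z s)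
    (hu : u ∈ (S : Subgroup G)) : Subgroup.centralizer ({z} : Set G) ≤ U z ⊔ (S : Subgroup G) := by
  intro g hg
  have hzg : Commute z g := (Subgroup.mem_centralizer_singleton_iff.1 hg).symm
  by_cases hgA : g ∈ c.A z
  · exact c.A_le F.ov hSz hgA
  · have h := c.A_le F.ov hSz (c.out_mul z F.ov g u hzg hgA F.comm (c.not_mem_A F))
    have := mul_mem h (Subgroup.mem_sup_right (inv_mem hu) : u⁻¹ ∈ U z ⊔ (S : Subgroup G))
    rwa [mul_inv_cancel_right] at this

/-- The stabiliser of `z` in the normaliser of a frame in `S` lies in `S`. -/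
theorem stab_mem (F : Frame z u) (hSz : ∀ s ∈ (S : Subgroup G), Commute z s) (hu : u ∈ (S : Subgroup G))
    {g : G} (hg : g ∈ Subgroup.normalizer (F.four : Set G)) (hzg : Commute z g) : g ∈ (S : Subgroup G) := by
  have hzS : z ∈ (S : Subgroup G) :=
    c.two_mem F.ov hSz (c.mem z F.ov) (k := 1) (by rw [pow_one, pow_two, mul_self_of_orderOf F.ov])
  have key : ∀ a, a ∈ c.A z → a ∈ Subgroup.normalizer (F.four : Set G) → a ∈ (S : Subgroup G) := by
    intro a ha han
    have h1 : u * a * u⁻¹ = a⁻¹ := (c.out_inv z F.ov u F.comm (c.not_mem_A F)).2 a ha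
    have h2 : a * u * a⁻¹ * u⁻¹ = a * a := by
      calc a * u * a⁻¹ * u⁻¹ = a * (u * a * u⁻¹)⁻¹ := by group
        _ = a * a := by rw [h1, inv_inv]
    have h3 : a * a ∈ F.four := h2 ▸ mul_mem ((Subgroup.mem_normalizer_iff.1 han u).1 F.u_mem) (inv_mem F.u_mem)
    refine c.two_mem F.ov hSz ha (k := 2) ?_
    have h4 := F.sq_four h3
    rwa [← pow_two, ← pow_mul] at h4
  by_cases hgA : g ∈ c.A z
  · exact key g hgA hg
  · have := mul_mem (key _ (c.out_mul z F.ov g u hzg hgA F.comm (c.not_mem_A F))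
      (mul_mem hg (Subgroup.le_normalizer F.u_mem))) (inv_mem hu)
    rwa [mul_inv_cancel_right] at this

end Ctx

end CfsgLib.DGroup48
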