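import Cfsg.Agent.AutPSL.Classes
import Cfsg.Agent.AutPSL.FixImage
import Cfsg.Prelude.Def_CaseTheorems

/-!
A group with an index two normal subgroup PSL(2, q) and dihedral Sylow 2-subgroups is PGL(2, q) or
has a central involution.
-/

set_option autoImplicit false

namespace CfsgLib.DGroup48

open Matrix CfsgLib.AutPSL
open scoped MatrixGroups

theorem zmod_half_unique {m : ℕ} [NeZero m] {i j : ZMod m} (hi : i + i = 0) (hj : j + j = 0)
    (hi0 : i ≠ 0) (hj0 : j ≠ 0) : i = j := by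
  have key : ∀ k : ZMod m, k + k = 0 → k ≠ 0 → 2 * k.val = m := by
    intro k hk hk0
    have h1 : ((k.val + k.val : ℕ) : ZMod m) = 0 := by
      rw [Nat.cast_add, ZMod.natCast_zmod_val]; exact hk
    rw [ZMod.natCast_eq_zero_iff] at h1
    have h2 := ZMod.val_lt k
    have h3 : k.val ≠ 0 := fun h => hk0 ((ZMod.val_eq_zero k).1 h)
    rcases h1 with ⟨c, hc⟩
    rcases c with _ | _ | c
    · omega
    · omega
    · nlinarith
  exact ZMod.val_injective m (by have := key i hi hi0; have := key j hj hj0; omega)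

/-- A dihedral group has no elementary abelian subgroup of order eight. -/
theorem dihedral_no_three {m : ℕ} [NeZero m] {a b d : DihedralGroup m} (ha : a ≠ 1) (hb : b ≠ 1)
    (hd : d ≠ 1) (ha2 : a * a = 1) (hb2 : b * b = 1) (hd2 : d * d = 1) (hab : a * b = b * a)
    (had : a * d = d * a) (hbd : b * d = d * b) (h1 : a ≠ b) (h2 : a ≠ d) (h3 : b ≠ d)
    (h4 : a * b ≠ d) : False := by
  have uniq : ∀ x y : DihedralGroup m, (∃ i, x = .r i) → (∃ i, y = .r i) → x ≠ 1 → y ≠ 1 →
      x * x = 1 → y * y = 1 → x = y := by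
    rintro x y ⟨i, rfl⟩ ⟨j, rfl⟩ hx hy hx2 hy2
    simp only [DihedralGroup.r_mul_r, DihedralGroup.one_def, DihedralGroup.r.injEq] at hx2 hy2 hx hy ⊢
    exact zmod_half_unique hx2 hy2 (fun h => hx (by rw [h])) (fun h => hy (by rw [h]))
  have prod : ∀ x y : DihedralGroup m, (∃ i, x = .sr i) → (∃ i, y = .sr i) → x * x = 1 →
      y * y = 1 → x * y = y * x → x ≠ y → x * y ≠ 1 ∧ x * y * (x * y) = 1 ∧ ∃ i, x * y = .r i := by
    rintro x y ⟨i, rfl⟩ ⟨j, rfl⟩ hx2 hy2 hxy hne
    refine ⟨fun h => hne (mul_left_cancel (hx2.trans h.symm)), ?_, ⟨_, DihedralGroup.sr_mul_sr i j⟩⟩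
    rw [mul_assoc, ← mul_assoc (DihedralGroup.sr j), ← hxy, mul_assoc, hy2, mul_one, hx2]
  rcases a with i | i <;> rcases b with j | j <;> rcases d with k | k
  · exact h1 (uniq _ _ ⟨i, rfl⟩ ⟨j, rfl⟩ ha hb ha2 hb2)
  · exact h1 (uniq _ _ ⟨i, rfl⟩ ⟨j, rfl⟩ ha hb ha2 hb2)
  · exact h2 (uniq _ _ ⟨i, rfl⟩ ⟨k, rfl⟩ ha hd ha2 hd2)
  · obtain ⟨p1, p2, q, hq⟩ := prod _ _ ⟨j, rfl⟩ ⟨k, rfl⟩ hb2 hd2 hbd h3
    have := uniq _ _ ⟨i, rfl⟩ ⟨q, hq⟩ ha p1 ha2 p2
    apply h4
    rw [hab, this, ← mul_assoc, hb2, one_mul]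
  · exact h3 (uniq _ _ ⟨j, rfl⟩ ⟨k, rfl⟩ hb hd hb2 hd2)
  · obtain ⟨p1, p2, q, hq⟩ := prod _ _ ⟨i, rfl⟩ ⟨k, rfl⟩ ha2 hd2 had h2
    have := uniq _ _ ⟨j, rfl⟩ ⟨q, hq⟩ hb p1 hb2 p2
    apply h4
    rw [this, ← mul_assoc, ha2, one_mul]
  · obtain ⟨p1, p2, q, hq⟩ := prod _ _ ⟨i, rfl⟩ ⟨j, rfl⟩ ha2 hb2 hab h1
    exact h4 (uniq _ _ ⟨q, hq⟩ ⟨k, rfl⟩ p1 hd p2 hd2)
  · obtain ⟨p1, p2, q, hq⟩ := prod _ _ ⟨i, rfl⟩ ⟨j, rfl⟩ ha2 hb2 hab h1
    obtain ⟨r1, r2, s, hs⟩ := prod _ _ ⟨i, rfl⟩ ⟨k, rfl⟩ ha2 hd2 had h2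
    exact h3 (mul_left_cancel (uniq _ _ ⟨q, hq⟩ ⟨s, hs⟩ p1 r1 p2 r2))

theorem no_three_of_dihedral_sylow {G : Type*} [Group G] [Finite G] (T : Sylow 2 G) {m : ℕ} [NeZero m]
    (eT : (T : Subgroup G) ≃* DihedralGroup m) {a b d : G} (ha : a ≠ 1) (hb : b ≠ 1)
    (hd : d ≠ 1) (ha2 : a * a = 1) (hb2 : b * b = 1) (hd2 : d * d = 1) (hab : a * b = b * a)
    (had : a * d = d * a) (hbd : b * d = d * b) (h1 : a ≠ b) (h2 : a ≠ d) (h3 : b ≠ d)
    (h4 : a * b ≠ d) : False := by
  haveI : Fact (Nat.Prime 2) := ⟨Nat.prime_two⟩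
  have hz : ∀ x : G, x * x = 1 → IsPGroup 2 (Subgroup.zpowers x) := by
    intro x hx
    rintro ⟨y, k, rfl⟩
    refine ⟨1, Subtype.ext ?_⟩
    show (x ^ k) ^ (2 ^ 1) = 1
    rw [pow_one, sq, ← _root_.zpow_add, ← two_mul, _root_.zpow_mul, _root_.zpow_two, hx, _root_.one_zpow]
  have hn : ∀ (x : G) (K : Subgroup G), (∀ y ∈ K, x * y = y * x) →
      Subgroup.zpowers x ≤ Subgroup.normalizer (K : Set G) := by
    intro x K h
    rw [Subgroup.zpowers_le, Subgroup.mem_normalizer_iff]
    intro y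
    constructor
    · intro hy
      rw [h y hy, mul_inv_cancel_right]; exact hy
    · intro hy
      have := h _ hy
      have e : x * (x * y * x⁻¹) = x * y := by rw [this]; group
      rwa [mul_left_cancel e] at hy
  have hK : IsPGroup 2 (Subgroup.zpowers a ⊔ Subgroup.zpowers b : Subgroup G) :=
    IsPGroup.to_sup_of_normal_left' (hz a ha2) (hz b hb2) (hn b _ fun y hy => by
      obtain ⟨k, rfl⟩ := Subgroup.mem_zpowers_iff.1 hy
      exact ((show Commute b a from hab.symm).zpow_right k).eq)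
  have hE : IsPGroup 2 (Subgroup.zpowers a ⊔ Subgroup.zpowers b ⊔ Subgroup.zpowers d : Subgroup G) :=
    IsPGroup.to_sup_of_normal_left' hK (hz d hd2) (hn d _ fun y hy => by
      have hle : Subgroup.zpowers a ⊔ Subgroup.zpowers b ≤ Subgroup.centralizer {d} := by
        rw [sup_le_iff, Subgroup.zpowers_le, Subgroup.zpowers_le,
          Subgroup.mem_centralizer_singleton_iff, Subgroup.mem_centralizer_singleton_iff]
        exact ⟨had, hbd⟩
      exact (Subgroup.mem_centralizer_singleton_iff.1 (hle hy)).symm)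
  obtain ⟨T', hT'⟩ := hE.exists_le_sylow
  let f := ((T'.equiv T).trans eT)
  have inT : ∀ x, x ∈ Subgroup.zpowers a ⊔ Subgroup.zpowers b ⊔ Subgroup.zpowers d → x ∈ (T' : Subgroup G) :=
    fun x hx => hT' hx
  let A : (T' : Subgroup G) := ⟨a, inT a (Subgroup.mem_sup_left (Subgroup.mem_sup_left (Subgroup.mem_zpowers a)))⟩
  let B : (T' : Subgroup G) := ⟨b, inT b (Subgroup.mem_sup_left (Subgroup.mem_sup_right (Subgroup.mem_zpowers b)))⟩
  let D : (T' : Subgroup G) := ⟨d, inT d (Subgroup.mem_sup_right (Subgroup.mem_zpowers d))⟩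
  have ne : ∀ x y : (T' : Subgroup G), (x : G) ≠ y → f x ≠ f y :=
    fun x y h h' => h (congrArg Subtype.val (f.injective h'))
  have ne1 : ∀ x : (T' : Subgroup G), (x : G) ≠ 1 → f x ≠ 1 :=
    fun x h h' => h (by simpa using congrArg Subtype.val (f.map_eq_one_iff.1 h'))
  have sq1 : ∀ x : (T' : Subgroup G), (x : G) * x = 1 → f x * f x = 1 := fun x h => by
    rw [← map_mul, show x * x = 1 from Subtype.ext h, map_one]
  have comm : ∀ x y : (T' : Subgroup G), (x : G) * y = y * x → f x * f y = f y * f x := fun x y h => by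
    rw [← map_mul, ← map_mul, show x * y = y * x from Subtype.ext h]
  refine dihedral_no_three (ne1 A ha) (ne1 B hb) (ne1 D hd) (sq1 A ha2) (sq1 B hb2) (sq1 D hd2)
    (comm A B hab) (comm A D had) (comm B D hbd) (ne A B h1) (ne A D h2) (ne B D h3) ?_
  rw [← map_mul]
  exact ne (A * B) D h4

/-- A dihedral Sylow 2-subgroup outside a normal subgroup contains an involution outside it. -/
theorem exists_involution_not_mem {G : Type*} [Group G] [Finite G] (L : Subgroup G) (hidx : L.index = 2)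
    (T : Sylow 2 G) {m : ℕ} [NeZero m] (eT : (T : Subgroup G) ≃* DihedralGroup m) :
    ∃ x : G, x * x = 1 ∧ x ∉ L := by
  haveI : Fact (Nat.Prime 2) := ⟨Nat.prime_two⟩
  by_contra hno
  push Not at hno
  have hTL : (T : Subgroup G) ≤ L := by
    intro t ht
    have hsr : ∀ i, ((eT.symm (DihedralGroup.sr i)) : G) ∈ L := by
      intro i
      apply hno
      rw [← Subgroup.coe_mul, ← map_mul, DihedralGroup.sr_mul_self, map_one, Subgroup.coe_one]
    have he : t = ((eT.symm (eT ⟨t, ht⟩)) : G) := by rw [MulEquiv.symm_apply_apply]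
    rw [he]
    rcases eT ⟨t, ht⟩ with i | i
    · have : DihedralGroup.r i = DihedralGroup.sr 0 * DihedralGroup.sr i := by
        rw [DihedralGroup.sr_mul_sr, sub_zero]
      rw [this, map_mul, Subgroup.coe_mul]
      exact L.mul_mem (hsr 0) (hsr i)
    · exact hsr i
  have h1 : (T : Subgroup G).index = (T : Subgroup G).relIndex L * L.index :=
    (Subgroup.relIndex_mul_index hTL).symm
  have h2 := T.not_dvd_index
  rw [h1, hidx] at h2
  exact h2 (dvd_mul_left 2 _)

section PSL

variable {F : Type} [Field F] [Fintype F]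

local notation "PSL₂" => Matrix.ProjectiveSpecialLinearGroup (Fin 2) F

theorem two_ne_zero_of_odd (hodd : Odd (Fintype.card F)) : (2 : F) ≠ 0 := by
  intro h
  obtain ⟨k, hk⟩ := hodd
  have h0 : (Fintype.card F : F) = 0 := FiniteField.cast_card_eq_zero F
  rw [hk] at h0
  push_cast at h0
  rw [h, zero_mul, zero_add] at h0
  exact one_ne_zero h0

/-- A four-group fixed by every field automorphism. -/
theorem exists_fixed_four (hodd : Odd (Fintype.card F)) :
    ∃ v w : PSL₂, v ≠ 1 ∧ w ≠ 1 ∧ v ≠ w ∧ v * v = 1 ∧ w * w = 1 ∧ v * w = w * v ∧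
      ∀ σ : RingAut F, (mapPSL σ : MulAut PSL₂) v = v ∧ (mapPSL σ : MulAut PSL₂) w = w := by
  have h2 := two_ne_zero_of_odd hodd
  obtain ⟨p, hp⟩ := CharP.exists F
  haveI := hp
  haveI : Fact p.Prime := ⟨(CharP.char_is_prime_or_zero F p).resolve_right (CharP.char_ne_zero_of_finite F p)⟩
  let ι : ZMod p →+* F := ZMod.castHom (dvd_refl p) F
  obtain ⟨a₀, b₀, hab₀⟩ := ZMod.sq_add_sq p (-1)
  let a := ι a₀
  let b := ι b₀
  have hab : a ^ 2 + b ^ 2 = -1 := by
    have := congrArg ι hab₀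
    simpa using this
  have fixι : ∀ (σ : RingAut F) (x : ZMod p), σ (ι x) = ι x := fun σ x =>
    RingHom.congr_fun (Subsingleton.elim ((σ : F →+* F).comp ι) ι) x
  let i : Matrix.SpecialLinearGroup (Fin 2) F := ⟨!![0, -1; 1, 0], by simp [Matrix.det_fin_two_of]⟩
  let j : Matrix.SpecialLinearGroup (Fin 2) F :=
    ⟨!![a, b; b, -a], by simp [Matrix.det_fin_two_of]; linear_combination -hab⟩
  have hcen : ∀ s : Matrix.SpecialLinearGroup (Fin 2) F, (QuotientGroup.mk s : PSL₂) = 1 →
      s.1 0 1 = 0 ∧ s.1 0 0 = s.1 1 1 := by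
    intro s hs
    obtain ⟨r, -, hr⟩ := Matrix.SpecialLinearGroup.mem_center_iff.1 ((QuotientGroup.eq_one_iff _).1 hs)
    constructor <;> simp [← hr]
  have hneg : ∀ s : Matrix.SpecialLinearGroup (Fin 2) F, s.1 = !![-1, 0; 0, -1] →
      (QuotientGroup.mk s : PSL₂) = 1 := by
    intro s hs
    refine (QuotientGroup.eq_one_iff _).2 (Matrix.SpecialLinearGroup.mem_center_iff.2 ⟨-1, by simp, ?_⟩)
    rw [hs]
    ext k l
    fin_cases k <;> fin_cases l <;> simp
  have hii : (QuotientGroup.mk i : PSL₂) * QuotientGroup.mk i = 1 := by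
    rw [← QuotientGroup.mk_mul]
    apply hneg
    show !![(0 : F), -1; 1, 0] * !![0, -1; 1, 0] = _
    simp [Matrix.mul_fin_two]
  have hjj : (QuotientGroup.mk j : PSL₂) * QuotientGroup.mk j = 1 := by
    rw [← QuotientGroup.mk_mul]
    apply hneg
    show !![a, b; b, -a] * !![a, b; b, -a] = _
    rw [Matrix.mul_fin_two]
    ext k l
    fin_cases k <;> fin_cases l <;> simp <;> (first | linear_combination hab | ring1)
  have hcomm : (QuotientGroup.mk i : PSL₂) * QuotientGroup.mk j = QuotientGroup.mk j * QuotientGroup.mk i := by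
    have : (QuotientGroup.mk (i * j * i * j) : PSL₂) = 1 := by
      apply hneg
      show !![(0 : F), -1; 1, 0] * !![a, b; b, -a] * !![0, -1; 1, 0] * !![a, b; b, -a] = _
      rw [Matrix.mul_fin_two, Matrix.mul_fin_two, Matrix.mul_fin_two]
      ext k l
      fin_cases k <;> fin_cases l <;> simp <;> (first | linear_combination hab | linear_combination -hab | ring1)
    simp only [QuotientGroup.mk_mul] at this
    generalize (QuotientGroup.mk i : PSL₂) = v at this hii ⊢
    generalize (QuotientGroup.mk j : PSL₂) = w at this hjj ⊢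
    calc v * w = v * w * v * w * (w * v) := by
          rw [mul_assoc (v * w * v) w, ← mul_assoc w w, hjj, one_mul, mul_assoc (v * w), hii, mul_one]
      _ = w * v := by rw [this, one_mul]
  refine ⟨QuotientGroup.mk i, QuotientGroup.mk j, ?_, ?_, ?_, hii, hjj, hcomm, ?_⟩
  · intro h
    have := (hcen _ h).1
    simp [i] at this
  · intro h
    obtain ⟨h01, h00⟩ := hcen _ h
    simp [j] at h01 h00
    have ha : (2 : F) * a = 0 := by linear_combination h00
    have : a = 0 := (mul_eq_zero.1 ha).resolve_left h2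
    rw [this, h01] at hab
    norm_num at hab
  · intro h
    have hh : (QuotientGroup.mk (i * j) : PSL₂) = 1 := by rw [QuotientGroup.mk_mul, ← h, hii]
    obtain ⟨h01, h00⟩ := hcen _ hh
    rw [Matrix.SpecialLinearGroup.coe_mul] at h01 h00
    simp [i, j, Matrix.mul_apply, Fin.sum_univ_two] at h01 h00
    have hb : (2 : F) * b = 0 := by linear_combination -h00
    have : b = 0 := (mul_eq_zero.1 hb).resolve_left h2
    rw [this, h01] at hab
    norm_num at hab
  · intro σ
    constructor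
    · show toQuotCenter (mapSL σ) (QuotientGroup.mk i) = _
      rw [toQuotCenter_mk]
      refine congrArg QuotientGroup.mk (Subtype.ext ?_)
      rw [coe_mapSL]
      ext k l
      fin_cases k <;> fin_cases l <;> simp [i]
    · show toQuotCenter (mapSL σ) (QuotientGroup.mk j) = _
      rw [toQuotCenter_mk]
      refine congrArg QuotientGroup.mk (Subtype.ext ?_)
      rw [coe_mapSL]
      ext k l
      fin_cases k <;> fin_cases l <;> simp [j, a, b, fixι]

theorem card_pgl_le :
    Nat.card (Matrix.ProjGenLinGroup (Fin 2) F) ≤ 2 * Nat.card PSL₂ := by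
  classical
  have h1 : Nat.card (Matrix.ProjGenLinGroup (Fin 2) F) * Nat.card (Subgroup.center (GL (Fin 2) F)) =
      Nat.card (GL (Fin 2) F) := (Subgroup.card_eq_card_quotient_mul_card_subgroup _).symm
  have h2 : Nat.card PSL₂ * Nat.card (Subgroup.center (Matrix.SpecialLinearGroup (Fin 2) F)) =
      Nat.card (Matrix.SpecialLinearGroup (Fin 2) F) := (Subgroup.card_eq_card_quotient_mul_card_subgroup _).symm
  have h3 : Nat.card (GL (Fin 2) F) ≤ Nat.card Fˣ * Nat.card (Matrix.SpecialLinearGroup (Fin 2) F) := by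
    have h := (Matrix.GeneralLinearGroup.det (n := Fin 2) (R := F)).ker.index_mul_card
    rw [Subgroup.index_ker] at h
    rw [← h]
    have hk : Nat.card (Matrix.GeneralLinearGroup.det (n := Fin 2) (R := F)).ker ≤
        Nat.card (Matrix.SpecialLinearGroup (Fin 2) F) :=
      Nat.card_le_card_of_injective (fun g => ⟨g.1.1, by
        have := congrArg Units.val (MonoidHom.mem_ker.1 g.2)
        simpa using this⟩) fun g g' h => Subtype.ext (Units.ext (congrArg Subtype.val h))
    exact Nat.mul_le_mul (Subgroup.card_le_card_group _) hk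
  have h4 : Nat.card Fˣ ≤ Nat.card (Subgroup.center (GL (Fin 2) F)) := by
    refine Nat.card_le_card_of_injective (fun u => ⟨Matrix.GeneralLinearGroup.scalar (Fin 2) u, by
      rw [Matrix.GeneralLinearGroup.center_eq_range_scalar]; exact ⟨u, rfl⟩⟩) ?_
    intro u u' h
    exact scalar_injective' (n := 2) (by norm_num) (congrArg Subtype.val h)
  have h5 : Nat.card (Subgroup.center (Matrix.SpecialLinearGroup (Fin 2) F)) ≤ 2 := by
    rw [Nat.card_congr (Matrix.SpecialLinearGroup.center_equiv_rootsOfUnity).toEquiv]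
    simp only [Fintype.card_fin, Nat.max_eq_left (show 1 ≤ 2 by norm_num)]
    exact card_rootsOfUnity F 2
  have h6 : 0 < Nat.card Fˣ := Nat.card_pos
  refine Nat.le_of_mul_le_mul_right ?_ h6
  calc Nat.card (Matrix.ProjGenLinGroup (Fin 2) F) * Nat.card Fˣ
      ≤ Nat.card (Matrix.ProjGenLinGroup (Fin 2) F) * Nat.card (Subgroup.center (GL (Fin 2) F)) :=
        Nat.mul_le_mul_left _ h4
    _ ≤ Nat.card Fˣ * Nat.card (Matrix.SpecialLinearGroup (Fin 2) F) := h1 ▸ h3
    _ ≤ 2 * Nat.card PSL₂ * Nat.card Fˣ := by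
        rw [← h2, mul_comm (Nat.card Fˣ)]
        refine Nat.mul_le_mul_right _ ?_
        rw [mul_comm 2]
        exact Nat.mul_le_mul_left _ h5

theorem mulEquiv_pgl {G : Type*} [Group G] [Finite G] (hodd : Odd (Fintype.card F))
    (_h3 : 3 < Fintype.card F) (L : Subgroup G) [L.Normal] (hidx : L.index = 2)
    (e : L ≃* PSL₂) (_hcore : Cfsg.oddCore G = ⊥) (T : Sylow 2 G) {m : ℕ} (hm : 2 ≤ m)
    (eT : (T : Subgroup G) ≃* DihedralGroup m) : Nonempty (G ≃* Matrix.ProjGenLinGroup (Fin 2) F) := by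
  haveI : NeZero m := ⟨by omega⟩
  have nothree : ∀ a b d : G, a ≠ 1 → b ≠ 1 → a * a = 1 → b * b = 1 → d * d = 1 →
      a * b = b * a → a * d = d * a → b * d = d * b → a ≠ b → a ∈ L → b ∈ L → d ∉ L → False := by
    intro a b d ha hb ha2 hb2 hd2 hab had hbd hne haL hbL hdL
    exact no_three_of_dihedral_sylow T eT ha hb (fun h => hdL (by rw [h]; exact L.one_mem)) ha2 hb2 hd2 hab had hbd
      hne (fun h => hdL (by rw [← h]; exact haL)) (fun h => hdL (by rw [← h]; exact hbL))
      (fun h => hdL (by rw [← h]; exact L.mul_mem haL hbL))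
  let φ : G →* MulAut PSL₂ :=
    { toFun := fun g => (e.symm.trans (MulAut.conjNormal g)).trans e
      map_one' := MulEquiv.ext fun x => by simp
      map_mul' := fun g h => MulEquiv.ext fun x => by simp }
  have hφ : ∀ (g : G) (x : L), φ g (e x) = e (MulAut.conjNormal g x) := fun g x => by simp [φ]
  have hφL : ∀ x : L, φ (x : G) = MulAut.conj (e x) := by
    intro x
    refine MulEquiv.ext fun y => ?_
    obtain ⟨y, rfl⟩ := e.surjective y
    rw [hφ, MulAut.conj_apply, ← map_inv, ← map_mul, ← map_mul]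
    exact congrArg e (Subtype.ext (by simp))
  obtain ⟨v₀, w₀, hv1, hw1, hvw, hv2, hw2, hvwc, hfix⟩ := exists_fixed_four hodd
  -- pulling back a four-group of `L` fixed by an automorphism
  have pull : ∀ (c : MulAut PSL₂) (d : G), d * d = 1 → d ∉ L → φ d (c v₀) = c v₀ → φ d (c w₀) = c w₀ →
      False := by
    intro c d hd2 hdL hv hw
    have comm : ∀ z, φ d z = z → (e.symm z : G) * d = d * (e.symm z : G) := by
      intro z hz
      have := congrArg e.symm hz
      have h' : MulAut.conjNormal d (e.symm z) = e.symm z := by simpa [φ] using this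
      have h'' := congrArg Subtype.val h'
      rw [MulAut.conjNormal_apply] at h''
      exact (mul_inv_eq_iff_eq_mul.1 h'').symm
    have mk : ∀ z z', (e.symm z : G) * (e.symm z' : G) = (e.symm (z * z') : G) := fun z z' => by simp
    have ne : ∀ z z', z ≠ z' → (e.symm z : G) ≠ (e.symm z' : G) :=
      fun z z' h h' => h (e.symm.injective (Subtype.ext h'))
    have one : ((e.symm (1 : PSL₂) : L) : G) = 1 := by simp
    refine nothree (e.symm (c v₀)) (e.symm (c w₀)) d ?_ ?_ ?_ ?_ hd2 ?_ (comm _ hv) (comm _ hw) ?_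
      (e.symm (c v₀)).2 (e.symm (c w₀)).2 hdL
    · exact one ▸ ne _ _ (fun h => hv1 (c.map_eq_one_iff.1 h))
    · exact one ▸ ne _ _ (fun h => hw1 (c.map_eq_one_iff.1 h))
    · rw [mk, ← map_mul, hv2, map_one, one]
    · rw [mk, ← map_mul, hw2, map_one, one]
    · rw [mk, mk, ← map_mul, ← map_mul, hvwc]
    · exact ne _ _ (fun h => hvw (c.injective h))
  have hcov : ∀ x g : G, x ∉ L → g ∉ L → x * g ∈ L := by
    intro x g hx hg
    rw [Subgroup.mul_mem_iff_of_index_two hidx]
    exact iff_of_false hx hg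
  have hinj : Function.Injective φ := by
    refine (injective_iff_map_eq_one φ).2 fun g hg => ?_
    have hgc : ∀ x : L, MulAut.conjNormal g x = x := fun x => e.injective (by rw [← hφ, hg]; rfl)
    by_cases hgL : g ∈ L
    · have := hφL ⟨g, hgL⟩
      rw [hg] at this
      have h1 : e ⟨g, hgL⟩ = 1 := conj_injective_psl le_rfl (this.symm.trans (map_one _).symm)
      exact congrArg Subtype.val (e.map_eq_one_iff.1 h1)
    · exfalso
      have hg2 : φ (g * g) = 1 := by rw [map_mul, hg, one_mul]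
      have hgg : g * g ∈ L := hcov g g hgL hgL
      have := hφL ⟨g * g, hgg⟩
      rw [hg2] at this
      have h1 : e ⟨g * g, hgg⟩ = 1 := conj_injective_psl le_rfl (this.symm.trans (map_one _).symm)
      refine pull 1 g (congrArg Subtype.val (e.map_eq_one_iff.1 h1)) hgL ?_ ?_ <;> rw [hg] <;> rfl
  obtain ⟨x, hx2, hxL⟩ := exists_involution_not_mem L hidx T eT
  obtain ⟨g, σ, hgσ⟩ := exists_decomposition_two (φ x)
  have hgσ' : φ x = conjPSL g * mapPSL σ := hgσ
  have hσ : σ = 1 := by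
    by_contra hσ
    have hsq : (conjPSL g * mapPSL σ : MulAut PSL₂) ^ 2 = 1 := by
      rw [← hgσ', ← map_pow, sq, hx2, map_one]
    have hσ2 : σ * σ = 1 := by
      have hmem : (fieldHom (σ * σ) : MulAut PSL₂) ∈ diagGroup := by
        refine ⟨(g * Matrix.GeneralLinearGroup.map (σ : F →+* F) g)⁻¹, ?_⟩
        have h2 : (fieldHom σ : MulAut PSL₂) * conjHom g =
            conjHom (Matrix.GeneralLinearGroup.map (σ : F →+* F) g) * fieldHom σ := mapPSL_mul_conjPSL σ g
        rw [map_inv, map_mul, inv_eq_iff_mul_eq_one, map_mul]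
        calc _ = conjHom g * (conjHom (Matrix.GeneralLinearGroup.map (σ : F →+* F) g) * fieldHom σ)
              * fieldHom σ := by simp only [mul_assoc]
          _ = 1 := by
              rw [← h2, ← hsq, sq]
              simp only [mul_assoc]
              rfl
      exact fieldHom_mem_diag le_rfl _ hmem
    have hord : orderOf σ = 2 := orderOf_eq_prime (by rw [sq]; exact hσ2) hσ
    obtain ⟨h, hh⟩ := field_twist_conj le_rfl hord two_pos g hsq
    refine pull (conjPSL h) x hx2 hxL ?_ ?_ <;> rw [hgσ', hh, MulAut.mul_apply, MulAut.mul_apply,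
      MulAut.inv_apply_self]
    · rw [(hfix σ).1]
    · rw [(hfix σ).2]
  have hle : φ.range ≤ (diagGroup : Subgroup (MulAut PSL₂)) := by
    have hL : ∀ y ∈ L, φ y ∈ (diagGroup : Subgroup (MulAut PSL₂)) := by
      intro y hy
      rw [show φ y = φ ((⟨y, hy⟩ : L) : G) from rfl, hφL]
      obtain ⟨s, hs⟩ := QuotientGroup.mk_surjective (e ⟨y, hy⟩)
      exact ⟨SpecialLinearGroup.toGL s, by rw [← hs]; exact (conj_eq_conjPSL s).symm⟩
    have hx : φ x ∈ (diagGroup : Subgroup (MulAut PSL₂)) :=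
      ⟨g, by rw [hgσ', hσ, mapPSL_one, mul_one]; rfl⟩
    rintro _ ⟨y, rfl⟩
    by_cases hy : y ∈ L
    · exact hL y hy
    · have := (diagGroup (F := F) (n := 2)).mul_mem ((diagGroup (F := F) (n := 2)).inv_mem hx)
        (hL (x * y) (hcov x y hxL hy))
      rwa [map_mul, inv_mul_cancel_left] at this
  have heq : φ.range = (diagGroup : Subgroup (MulAut PSL₂)) := by
    refine Subgroup.eq_of_le_of_card_ge hle ?_
    rw [card_diagGroup le_rfl, ← Nat.card_congr (MonoidHom.ofInjective hinj).toEquiv,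
      ← L.index_mul_card, hidx, Nat.card_congr e.toEquiv]
    exact card_pgl_le
  have hker : (conjHom : GL (Fin 2) F →* MulAut PSL₂).ker = Subgroup.center (GL (Fin 2) F) := by
    ext y
    rw [MonoidHom.mem_ker]
    exact conjPSL_eq_one_iff le_rfl
  exact ⟨((MonoidHom.ofInjective hinj).trans (MulEquiv.subgroupCongr heq)).trans
    ((QuotientGroup.quotientKerEquivRange _).symm.trans (QuotientGroup.quotientMulEquivOfEq hker))⟩

end PSL

end CfsgLib.DGroup48
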